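import Cfsg.Agent.J2Type.Iso
import Cfsg.Agent.J2Type.FiveCent

/-!
Elements of order five in a group of Hall-Janko type: the companion `d` of an element `c` of order five
centralizing `z`, the common alternating subgroup and a generation criterion.
-/

set_option autoImplicit false
set_option linter.unusedSectionVars false
set_option synthInstance.maxSize 2000

namespace CfsgLib.ConwayFive.JFive

open CfsgLib.J2Type

/-- An involution of the point stabilizer. -/
def a0 : A5 := ⟨Equiv.swap 0 1 * Equiv.swap 2 3, Equiv.Perm.mem_alternatingGroup.2 (by decide)⟩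

/-- An element of order three of the point stabilizer. -/
def n0 : A5 := ⟨Equiv.swap 0 1 * Equiv.swap 1 2, Equiv.Perm.mem_alternatingGroup.2 (by decide)⟩

/-- An element of order five. -/
def b0 : A5 := ⟨finRotate 5, Equiv.Perm.mem_alternatingGroup.2 (by decide)⟩

theorem conj_std : ∀ w : A5, w * w = 1 → w ≠ 1 → ∀ n : A5, n ^ 3 = 1 ∧ n ≠ 1 →
    n * w * n⁻¹ * w = w * (n * w * n⁻¹) →
      ∃ k, k * w * k⁻¹ = a0 ∧ (k * n * k⁻¹ = n0 ∨ k * n * k⁻¹ = n0⁻¹) := by decide +kernel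

/-- The twelve elements of the point stabilizer. -/
def wordsA4 : List A5 :=
  [1, a0, n0 * a0 * n0⁻¹, a0 * (n0 * a0 * n0⁻¹), n0, a0 * n0, n0 * a0 * n0⁻¹ * n0,
    a0 * (n0 * a0 * n0⁻¹) * n0, n0⁻¹, a0 * n0⁻¹, n0 * a0 * n0⁻¹ * n0⁻¹,
    a0 * (n0 * a0 * n0⁻¹) * n0⁻¹]

theorem five_determined : ∀ q : A5, q ^ 5 = 1 →
    (∀ x ∈ wordsA4, ((x * q) ^ 2 = 1 ↔ (x * b0) ^ 2 = 1) ∧ ((x * q) ^ 3 = 1 ↔ (x * b0) ^ 3 = 1)) →
      q = b0 := by decide +kernel

theorem std_orders : a0 ^ 2 = 1 ∧ n0 ^ 3 = 1 ∧ b0 ^ 5 = 1 ∧ a0 ≠ 1 ∧ n0 ≠ 1 ∧ b0 ≠ 1 := by decide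

/-- A subgroup with elements of orders two, three and five is everything. -/
theorem eq_top_of_orders (L : Subgroup A5) {a n b : A5} (ha : a ∈ L) (hn : n ∈ L) (hb : b ∈ L)
    (ha2 : a ^ 2 = 1) (hn3 : n ^ 3 = 1) (hb5 : b ^ 5 = 1) (ha1 : a ≠ 1) (hn1 : n ≠ 1) (hb1 : b ≠ 1) :
    L = ⊤ := by
  haveI : Fact (Nat.Prime 2) := ⟨Nat.prime_two⟩
  haveI : Fact (Nat.Prime 3) := ⟨Nat.prime_three⟩
  haveI : Fact (Nat.Prime 5) := ⟨by norm_num⟩
  have h2 := Subgroup.orderOf_dvd_natCard L ha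
  have h3 := Subgroup.orderOf_dvd_natCard L hn
  have h5 := Subgroup.orderOf_dvd_natCard L hb
  rw [orderOf_eq_prime ha2 ha1] at h2
  rw [orderOf_eq_prime hn3 hn1] at h3
  rw [orderOf_eq_prime hb5 hb1] at h5
  have h30 : 30 ∣ Nat.card L :=
    Nat.Coprime.mul_dvd_of_dvd_of_dvd (m := 6) (n := 5) (by norm_num)
      (Nat.Coprime.mul_dvd_of_dvd_of_dvd (m := 2) (n := 3) (by norm_num) h2 h3) h5
  have hmul := L.card_mul_index
  rw [A5Facts.card] at hmul
  obtain ⟨k, hk⟩ := h30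
  rw [hk] at hmul
  have hidx : k * L.index = 2 := by nlinarith
  have : L.index = 1 ∨ L.index = 2 := (Nat.dvd_prime Nat.prime_two).1 ⟨k, by rw [← hidx, mul_comm]⟩
  rcases this with h | h
  · exact Subgroup.index_eq_one.1 h
  · exfalso
    haveI : L.Normal := Subgroup.normal_of_index_eq_two h
    rcases (alternatingGroup.isSimpleGroup (α := Fin 5) (by simp)).eq_bot_or_eq_top_of_normal L
      inferInstance with e | e
    · rw [e] at ha; exact ha1 (Subgroup.mem_bot.1 ha)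
    · rw [e, Subgroup.index_top] at h; norm_num at h

/-- An automorphism fixing a point stabilizer pointwise is trivial. -/
theorem aut_fix (θ : A5 →* A5) (hθ : Function.Injective θ) {w n : A5} (hw : w * w = 1) (hw1 : w ≠ 1)
    (hn : n ^ 3 = 1) (hn1 : n ≠ 1) (hc : n * w * n⁻¹ * w = w * (n * w * n⁻¹))
    (fw : θ w = w) (fn : θ n = n) : ∀ x, θ x = x := by
  obtain ⟨k, kw, kn⟩ := conj_std w hw hw1 n ⟨hn, hn1⟩ hc
  set ψ : A5 →* A5 := (MulAut.conj k).toMonoidHom.comp (θ.comp (MulAut.conj k⁻¹).toMonoidHom) with hψ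
  have hψx : ∀ x, ψ x = k * θ (k⁻¹ * x * k) * k⁻¹ := fun x => by simp [hψ]
  have hfix : ∀ x, θ x = x → ψ (k * x * k⁻¹) = k * x * k⁻¹ := fun x hx => by
    rw [hψx, show k⁻¹ * (k * x * k⁻¹) * k = x by group, hx]
  have hψi : Function.Injective ψ := fun x y e => by
    rw [hψx, hψx] at e
    exact mul_left_cancel (mul_right_cancel (hθ (mul_left_cancel (mul_right_cancel e))))
  have ha : ψ a0 = a0 := kw ▸ hfix w fw
  have hn' : ψ n0 = n0 := by
    rcases kn with e | e
    · exact e ▸ hfix n fn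
    · have h := e ▸ hfix n fn
      rw [map_inv, inv_inj] at h
      exact h
  have hwords : ∀ x ∈ wordsA4, ψ x = x := by
    intro x hx
    simp only [wordsA4, List.mem_cons, List.not_mem_nil, or_false] at hx
    rcases hx with rfl | rfl | rfl | rfl | rfl | rfl | rfl | rfl | rfl | rfl | rfl | rfl <;>
      simp only [map_mul, map_inv, map_one, ha, hn']
  have hb : ψ b0 = b0 := by
    refine five_determined _ (by rw [← map_pow, std_orders.2.2.1, map_one]) fun x hx => ?_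
    constructor <;>
      rw [← hwords x hx, ← map_mul, ← map_pow, map_eq_one_iff ψ hψi, hwords x hx]
  have htop := eq_top_of_orders (ψ.eqLocus (MonoidHom.id A5)) ha hn' hb std_orders.1 std_orders.2.1
    std_orders.2.2.1 std_orders.2.2.2.1 std_orders.2.2.2.2.1 std_orders.2.2.2.2.2
  intro x
  have h : ψ (k * x * k⁻¹) = k * x * k⁻¹ :=
    (htop ▸ Subgroup.mem_top _ : k * x * k⁻¹ ∈ ψ.eqLocus (MonoidHom.id A5))
  rw [hψx, show k⁻¹ * (k * x * k⁻¹) * k = x by group] at h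
  exact mul_left_cancel (mul_right_cancel h)

theorem four_five_three : ∀ a : A5, a * a = 1 → a ≠ 1 → ∀ b : A5, b ^ 5 = 1 → b ≠ 1 →
    ∀ c : A5, c * c = 1 ∧ c ≠ 1 ∧ c ≠ a ∧ a * c = c * a →
      ∃ x ∈ [a * b, c * b, a * b ^ 2, c * b ^ 2, a * c * b, a * c * b ^ 2], x ^ 3 = 1 ∧ x ≠ 1 := by
  decide +kernel

variable {G : Type*} [Group G] [Finite G]
variable {z u t r g : G} {Q E X0 F : Subgroup G} {img : G → A5}

section
variable (D : Data z u t r Q E img) (T : CTData z u t E X0 F g)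
include D T

theorem orderOf_z : orderOf z = 2 := orderOf_two_iff.2 ⟨D.setup.z_sq, D.setup.z_ne⟩

theorem card_cent_five {c : G} (hc : c * z = z * c) (hc5 : orderOf c = 5) :
    Nat.card (Subgroup.centralizer ({c} : Set G)) = 50 := by
  obtain ⟨s, s2, P, -, V⟩ := CTData.exists_fiveData D T
  have hz := orderOf_z D T
  have hz' : ∀ {v w : G}, orderOf v = 5 → w ∈ Subgroup.zpowers v → w ≠ 1 →
      Subgroup.centralizer ({w} : Set G) = Subgroup.centralizer ({v} : Set G) := by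
    intro v w hv hw hw1
    have hvw : v ∈ Subgroup.zpowers w := by
      rw [zpowers_eq_of_prime (by norm_num) hv hw hw1]; exact Subgroup.mem_zpowers v
    ext x
    simp only [mem_cent_iff]
    exact ⟨fun e => commute_of_mem_zpowers e hvw, fun e => commute_of_mem_zpowers e hw⟩
  obtain ⟨k, hk⟩ := V.five_cases hz hc5
  have hne : k * c * k⁻¹ ≠ 1 := conj_ne_one fun e => by rw [e, orderOf_one] at hc5; norm_num at hc5
  rw [← card_cent_conj k c]
  rcases hk with e | e
  · exfalso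
    refine D.setup.four_not_dvd_cent hc hc5 ?_
    rw [← card_cent_conj k c, hz' V.one.ord e hne, V.one.card]
    norm_num
  · rw [hz' V.ord2 e hne, V.card_cent2 hz]

/-- Elements of order five centralizing `c` and inverted by `z` generate the same group. -/
theorem inverted_unique {c d x : G} (hc : c * z = z * c) (hc5 : orderOf c = 5)
    (hd5 : orderOf d = 5) (hdc : d * c = c * d) (hdz : z * d * z = d⁻¹)
    (hx5 : orderOf x = 5) (hxc : x * c = c * x) (hxz : z * x * z = x⁻¹) :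
    x ∈ Subgroup.zpowers d := by
  classical
  haveI : Fact (Nat.Prime 5) := ⟨by norm_num⟩
  set X := Subgroup.centralizer ({c} : Set G) with hX
  obtain ⟨S⟩ : Nonempty (Sylow 5 ↥X) := inferInstance
  have hcard := card_cent_five D T hc hc5
  rw [← hX] at hcard
  have hS25 : Nat.card (S : Subgroup ↥X) = 5 ^ 2 := by
    obtain ⟨m, hm⟩ := IsPGroup.iff_card.1 S.isPGroup'
    have h1 : 5 ^ 2 ∣ Nat.card (S : Subgroup ↥X) :=
      S.pow_dvd_card_of_pow_dvd_card (by rw [hcard]; norm_num)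
    have h2 : 5 ^ m ∣ 50 := by rw [← hm, ← hcard]; exact Subgroup.card_subgroup_dvd_card _
    rw [hm] at h1 ⊢
    have hm2 : 2 ≤ m := (Nat.pow_dvd_pow_iff_le_right (by norm_num)).1 h1
    have hm3 : m < 3 := by
      by_contra hlt
      have := (pow_dvd_pow 5 (show 3 ≤ m by omega)).trans h2
      norm_num at this
    rw [show m = 2 by omega]
  haveI : (S : Subgroup ↥X).Normal := Subgroup.normal_of_index_eq_two (by
    have := (S : Subgroup ↥X).card_mul_index
    rw [hS25, hcard] at this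
    omega)
  haveI := IsPGroup.isMulCommutative_of_card_eq_prime_sq hS25
  have hmem : ∀ y : G, y * c = c * y → orderOf y = 5 → ∃ p ∈ (S : Subgroup ↥X), (p : G) = y := by
    intro y hyc hy5
    refine ⟨⟨y, mem_cent_iff.2 hyc⟩, ?_, rfl⟩
    obtain ⟨S', hS'⟩ := (IsPGroup.of_card (p := 5) (n := 1)
      (show Nat.card (Subgroup.zpowers (⟨y, mem_cent_iff.2 hyc⟩ : ↥X)) = 5 ^ 1 by
        rw [Nat.card_zpowers, Subgroup.orderOf_mk, hy5]; rfl)).exists_le_sylow
    haveI := Sylow.unique_of_normal S inferInstance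
    have : S' = S := Subsingleton.elim _ _
    exact this ▸ hS' (Subgroup.mem_zpowers _)
  obtain ⟨pc, hpc, epc⟩ := hmem c rfl hc5
  obtain ⟨pd, hpd, epd⟩ := hmem d hdc hd5
  obtain ⟨px, hpx, epx⟩ := hmem x hxc hx5
  have hdx : d * x = x * d := by
    rw [← epd, ← epx]
    exact congrArg Subtype.val (congrArg Subtype.val
      ((IsMulCommutative.is_comm (M := ↥(S : Subgroup ↥X))).comm ⟨pd, hpd⟩ ⟨px, hpx⟩))
  by_contra hcon
  have hdX : d ∈ X := mem_cent_iff.2 hdc
  have hxX : x ∈ X := mem_cent_iff.2 hxc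
  have hind : ∀ w, w ∈ Subgroup.zpowers d → w ∈ Subgroup.zpowers x → w = 1 := by
    intro w hw hw'
    by_contra hw1
    refine hcon ?_
    rw [← zpowers_eq_of_prime (by norm_num) hd5 hw hw1, zpowers_eq_of_prime (by norm_num) hx5 hw' hw1]
    exact Subgroup.mem_zpowers x
  have hbij : Function.Bijective (fun p : ↥(Subgroup.zpowers d) × ↥(Subgroup.zpowers x) =>
      (⟨⟨(p.1 : G) * p.2, mul_mem (Subgroup.zpowers_le.2 hdX p.1.2) (Subgroup.zpowers_le.2 hxX p.2.2)⟩,
        by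
          obtain ⟨i, hi⟩ := Subgroup.mem_zpowers_iff.1 p.1.2
          obtain ⟨j, hj⟩ := Subgroup.mem_zpowers_iff.1 p.2.2
          have e : (⟨(p.1 : G) * p.2, mul_mem (Subgroup.zpowers_le.2 hdX p.1.2)
              (Subgroup.zpowers_le.2 hxX p.2.2)⟩ : ↥X) = pd ^ i * px ^ j :=
            Subtype.ext (by rw [Subgroup.coe_mul, SubgroupClass.coe_zpow, SubgroupClass.coe_zpow,
              epd, epx, hi, hj])
          rw [e]
          exact mul_mem (zpow_mem hpd i) (zpow_mem hpx j)⟩ : ↥(S : Subgroup ↥X))) := by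
    refine (Nat.bijective_iff_injective_and_card _).2 ⟨?_, ?_⟩
    · rintro ⟨a, b⟩ ⟨a', b'⟩ h
      have h' : (a : G) * b = a' * b' := congrArg (fun p : ↥(S : Subgroup ↥X) => ((p : ↥X) : G)) h
      have e1 : (a' : G)⁻¹ * a = b' * (b : G)⁻¹ := by
        calc (a' : G)⁻¹ * a = (a' : G)⁻¹ * (a * b) * (b : G)⁻¹ := by group
          _ = b' * (b : G)⁻¹ := by rw [h']; group
      have e2 := hind _ (mul_mem (inv_mem a'.2) a.2) (e1 ▸ mul_mem b'.2 (inv_mem b.2))
      rw [e2] at e1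
      exact Prod.ext (Subtype.ext (inv_mul_eq_one.1 e2).symm)
        (Subtype.ext (mul_inv_eq_one.1 e1.symm).symm)
    · rw [Nat.card_prod, Nat.card_zpowers, Nat.card_zpowers, hd5, hx5, hS25]; norm_num
  obtain ⟨⟨a, b⟩, e⟩ := hbij.2 ⟨pc, hpc⟩
  have e' : (a : G) * b = c := (congrArg (fun p : ↥(S : Subgroup ↥X) => ((p : ↥X) : G)) e).trans epc
  have hinv : ∀ (y : G), z * y * z = y⁻¹ → ∀ w ∈ Subgroup.zpowers y, z * w * z = w⁻¹ := by
    intro y hy w hw
    obtain ⟨j, rfl⟩ := Subgroup.mem_zpowers_iff.1 hw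
    have hzi : z⁻¹ = z := inv_of_sq D.setup.z_sq
    calc z * y ^ j * z = (z * y * z⁻¹) ^ j := by rw [conj_zpow, hzi]
      _ = (y ^ j)⁻¹ := by rw [hzi, hy, inv_zpow]
  have hab : (a : G) * b = b * a := commute_of_mem_zpowers
    (commute_of_mem_zpowers hdx.symm a.2).symm b.2
  have h1 : z * c * z = c⁻¹ := by
    calc z * c * z = z * a * (z * z) * b * z := by rw [← e', D.setup.z_sq, mul_one]; group
      _ = (z * a * z) * (z * b * z) := by group
      _ = c⁻¹ := by rw [hinv d hdz a a.2, hinv x hxz b b.2, ← e', mul_inv_rev, ← mul_inv_rev, ← mul_inv_rev, hab]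
  rw [← hc, mul_assoc, D.setup.z_sq, mul_one] at h1
  have : c * c = 1 := by nth_rw 1 [h1]; rw [inv_mul_cancel]
  have h5 := orderOf_dvd_of_pow_eq_one (show c ^ 2 = 1 by rw [sq, this])
  rw [hc5] at h5
  norm_num at h5

/-- The companion of an element of order five centralizing `z`. -/
theorem exists_dual {c : G} (hc : c * z = z * c) (hc5 : orderOf c = 5) :
    ∃ d, orderOf d = 5 ∧ d * c = c * d ∧ z * d * z = d⁻¹ ∧
      Nonempty (↥(Subgroup.centralizer ({d} : Set G) ⊓ Subgroup.centralizer ({z} : Set G)) ≃* A5) := by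
  classical
  haveI : Fact (Nat.Prime 5) := ⟨by norm_num⟩
  have hzz := D.setup.z_sq
  have hzi : z⁻¹ = z := inv_of_sq hzz
  obtain ⟨e⟩ := T.iso
  set a := e ⟨z, T.z_X0⟩ with ha
  have haa : a * a = 1 := by
    rw [ha, ← map_mul, show (⟨z, T.z_X0⟩ : ↥X0) * ⟨z, T.z_X0⟩ = 1 from Subtype.ext hzz, map_one]
  have ha1 : a ≠ 1 := fun h => D.setup.z_ne
    (congrArg Subtype.val (e.injective (h.trans e.map_one.symm)))
  obtain ⟨k, hk5, hk1⟩ := A5Facts.invol_pair_five a haa ha1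
  set k' : ↥X0 := e.symm k with hk'
  set s : G := z * ((k' : G) * z * (k' : G)⁻¹) with hs
  have hsX : s ∈ X0 := X0.mul_mem T.z_X0 (X0.mul_mem (X0.mul_mem k'.2 T.z_X0) (X0.inv_mem k'.2))
  have hes : e ⟨s, hsX⟩ = a * (k * a * k⁻¹) := by
    rw [show (⟨s, hsX⟩ : ↥X0) = ⟨z, T.z_X0⟩ * (k' * ⟨z, T.z_X0⟩ * k'⁻¹) from rfl, map_mul, map_mul,
      map_mul, map_inv, hk', MulEquiv.apply_symm_apply]
  have hs5 : orderOf s = 5 := by
    rw [← Subgroup.orderOf_mk s hsX, ← MulEquiv.orderOf_eq e, hes]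
    exact orderOf_eq_prime hk5 hk1
  have hsz : z * s * z = s⁻¹ := by
    rw [hs, mul_inv_rev, mul_inv_rev, mul_inv_rev, inv_inv, hzi, ← mul_assoc z z, hzz, one_mul]
    group
  have O := CTData.fiveOne D T hsX hs5 ⟨z, by rw [hzi]; exact hsz⟩
  have Ohom := O.hom
  set H := Subgroup.centralizer ({s} : Set G) with hH
  obtain ⟨φ, hφs, hφ⟩ := Ohom
  have hzH : ∀ h ∈ H, z * h * z ∈ H := by
    intro h hh
    have hsi : h * s⁻¹ = s⁻¹ * h := (Commute.inv_right (show Commute h s from mem_cent_iff.1 hh)).eq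
    have hs' : s = z * s⁻¹ * z := by
      rw [← hsz, show z * (z * s * z) * z = (z * z) * s * (z * z) by group, hzz, one_mul, mul_one]
    refine mem_cent_iff.2 ?_
    calc z * h * z * s = z * h * z * (z * s⁻¹ * z) := by rw [← hs']
      _ = z * h * (z * z) * s⁻¹ * z := by group
      _ = z * (h * s⁻¹) * z := by rw [hzz]; group
      _ = z * (s⁻¹ * h) * z := by rw [hsi]
      _ = z * s⁻¹ * (z * z) * h * z := by rw [hzz]; group
      _ = (z * s⁻¹ * z) * (z * h * z) := by group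
      _ = s * (z * h * z) := by rw [← hs']
  let cz : ↥H →* ↥H := MonoidHom.mk' (fun h => ⟨z * h * z, hzH h h.2⟩) fun x y => Subtype.ext (by
    show z * ((x : G) * y) * z = z * x * z * (z * y * z)
    calc z * ((x : G) * y) * z = z * x * (z * z) * y * z := by rw [hzz]; group
      _ = _ := by group)
  have hcz : ∀ h : ↥H, (cz h : G) = z * h * z := fun _ => rfl
  have hcz2 : ∀ h, cz (cz h) = h := fun h => Subtype.ext (by
    rw [hcz, hcz, show z * (z * (h : G) * z) * z = z * z * h * (z * z) by group, hzz, one_mul, mul_one])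
  have hker : ∀ h : ↥H, φ h = 1 → φ (cz h) = 1 := by
    intro h hh
    rw [hφ] at hh ⊢
    obtain ⟨j, hj⟩ := Subgroup.mem_zpowers_iff.1 hh
    refine Subgroup.mem_zpowers_iff.2 ⟨-j, ?_⟩
    rw [hcz, ← hj, zpow_neg, ← inv_zpow, ← hsz]
    calc (z * s * z) ^ j = (z * s * z⁻¹) ^ j := by rw [hzi]
      _ = z * s ^ j * z⁻¹ := conj_zpow
      _ = _ := by rw [hzi]
  have hle : φ.ker ≤ (φ.comp cz).ker := fun h hh => hker h hh
  let θ : A5 →* A5 := φ.liftOfSurjective hφs ⟨φ.comp cz, hle⟩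
  have hθ : ∀ h, θ (φ h) = φ (cz h) := fun h => MonoidHom.liftOfRightInverse_comp_apply _ _ _ _ h
  have hθi : Function.Injective θ := fun x y hxy => by
    obtain ⟨p, rfl⟩ := hφs x
    obtain ⟨q, rfl⟩ := hφs y
    have := congrArg θ hxy
    rwa [hθ, hθ, hθ, hθ, hcz2, hcz2] at this
  obtain ⟨eta, hn3, hnz, -, hnX, hnF, hfree⟩ := CTData.exists_eta D T
  have hFH : ∀ f ∈ F, f ∈ H := fun f hf => mem_cent_iff.2 (T.comm f hf s hsX)
  have hnH : eta ∈ H := mem_cent_iff.2 (hnX s hsX)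
  have htH : t ∈ H := hFH t T.t_F
  have hcomm : ∀ h : ↥H, (h : G) * z = z * h → θ (φ h) = φ h := fun h hh => by
    rw [hθ]
    refine congrArg φ (Subtype.ext ?_)
    rw [hcz, ← hh, mul_assoc, hzz, mul_one]
  have hφ1 : ∀ (h : ↥H) {m : ℕ}, orderOf (h : G) = m → ¬ m ∣ 5 → m ≠ 1 → φ h ≠ 1 := by
    intro h m hm h5 _ e'
    rw [hφ] at e'
    have := orderOf_dvd_of_mem_zpowers e'
    rw [hm, hs5] at this
    exact h5 this
  have hθ1 : ∀ x, θ x = x := by
    refine aut_fix θ hθi (w := φ ⟨t, htH⟩) (n := φ ⟨eta, hnH⟩) ?_ ?_ ?_ ?_ ?_ ?_ ?_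
    · rw [← map_mul, show (⟨t, htH⟩ : ↥H) * ⟨t, htH⟩ = 1 from Subtype.ext D.t_sq, map_one]
    · exact hφ1 _ (orderOf_two_iff.2 ⟨D.t_sq, D.t_ne⟩) (by norm_num) (by norm_num)
    · rw [← map_pow, show (⟨eta, hnH⟩ : ↥H) ^ 3 = 1 from Subtype.ext (by
        rw [SubmonoidClass.coe_pow, ← hn3, pow_orderOf_eq_one]; rfl), map_one]
    · exact hφ1 _ hn3 (by norm_num) (by norm_num)
    · simp only [← map_mul, ← map_inv]
      refine congrArg φ (Subtype.ext ?_)
      exact ((CTData.F_t D T (hnF t T.t_F)))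
    · exact hcomm _ D.t_z
    · exact hcomm _ hnz
  -- the centralizer of `s` and `z` maps isomorphically
  set A := H ⊓ Subgroup.centralizer ({z} : Set G) with hA
  let ψ : ↥A →* A5 := φ.comp (Subgroup.inclusion (inf_le_left : A ≤ H))
  have hψi : Function.Injective ψ := by
    rw [← MonoidHom.ker_eq_bot_iff, eq_bot_iff]
    rintro ⟨x, hx⟩ hk
    have hx' : x ∈ Subgroup.zpowers s := (hφ _).1 hk
    rw [Subgroup.mem_bot]
    refine Subtype.ext ?_
    show x = 1
    obtain ⟨j, hj⟩ := Subgroup.mem_zpowers_iff.1 hx'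
    have h1 : z * x * z = x⁻¹ := by
      rw [← hj, ← inv_zpow, ← hsz]
      calc z * s ^ j * z = z * s ^ j * z⁻¹ := by rw [hzi]
        _ = (z * s * z⁻¹) ^ j := conj_zpow.symm
        _ = _ := by rw [hzi]
    rw [← mem_cent_iff.1 hx.2, mul_assoc, hzz, mul_one] at h1
    have h2 : x ^ 2 = 1 := by rw [sq]; nth_rw 1 [h1]; rw [inv_mul_cancel]
    have h5 : x ^ 5 = 1 := by
      rw [← hj, ← zpow_natCast, ← zpow_mul, mul_comm, zpow_mul, zpow_natCast,
        show s ^ 5 = 1 by rw [← hs5, pow_orderOf_eq_one], one_zpow]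
    calc x = x ^ 5 * (x ^ 2 * x ^ 2)⁻¹ := by group
      _ = 1 := by rw [h2, h5]; simp
  have hψs : Function.Surjective ψ := by
    intro y
    obtain ⟨h, rfl⟩ := hφs y
    have h1 : φ (h⁻¹ * cz h) = 1 := by
      rw [map_mul, map_inv, ← hθ h, hθ1, inv_mul_cancel]
    obtain ⟨j, hj⟩ := Subgroup.mem_zpowers_iff.1 ((hφ _).1 h1)
    have hj' : z * (h : G) * z = h * s ^ j := by
      rw [hj]
      show z * (h : G) * z = h * ((h : G)⁻¹ * (z * h * z))
      group
    -- halve the exponent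
    set m : ℤ := 3 * j
    have hm : z * ((h : G) * s ^ m) * z = h * s ^ m := by
      calc z * ((h : G) * s ^ m) * z = (z * h * z) * (z * s ^ m * z) := by
            rw [show z * (h : G) * z * (z * s ^ m * z) = z * h * (z * z) * s ^ m * z by group, hzz]
            group
        _ = h * s ^ j * (s ^ m)⁻¹ := by
            rw [hj', ← inv_zpow, ← hsz]
            congr 1
            calc z * s ^ m * z = z * s ^ m * z⁻¹ := by rw [hzi]
              _ = (z * s * z⁻¹) ^ m := conj_zpow.symm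
              _ = _ := by rw [hzi]
        _ = h * s ^ m := by
            rw [mul_assoc, ← zpow_neg, ← zpow_add]
            congr 1
            refine zpow_eq_zpow_iff_modEq.2 ?_
            rw [hs5]
            refine Int.modEq_iff_dvd.2 ⟨j, ?_⟩
            simp only [m]; push_cast; ring
    have hmem : (h : G) * s ^ m ∈ A := by
      refine ⟨mul_mem h.2 (zpow_mem (mem_cent_iff.2 rfl) m), mem_cent_iff.2 ?_⟩
      nth_rw 1 [← hm]
      rw [mul_assoc _ z z, hzz, mul_one]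
    refine ⟨⟨_, hmem⟩, ?_⟩
    show φ ⟨(h : G) * s ^ m, _⟩ = φ h
    rw [show (⟨(h : G) * s ^ m, (Subgroup.inclusion (inf_le_left : A ≤ H) ⟨_, hmem⟩).2⟩ : ↥H) =
      h * ⟨s ^ m, zpow_mem (mem_cent_iff.2 rfl) m⟩ from rfl, map_mul,
      (hφ ⟨s ^ m, _⟩).2 (Subgroup.zpow_mem_zpowers s m), mul_one]
  let eA : ↥A ≃* A5 := MulEquiv.ofBijective ψ ⟨hψi, hψs⟩
  -- transport to `c`
  obtain ⟨w, hw⟩ := exists_prime_orderOf_dvd_card' (G := ↥A) 5 (by
    rw [Nat.card_congr eA.toEquiv, A5Facts.card]; norm_num)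
  have hwz : (w : G) * z = z * w := mem_cent_iff.1 w.2.2
  have hws : (w : G) * s = s * w := mem_cent_iff.1 w.2.1
  obtain ⟨m, hm, hmc⟩ := conj_into (p := 5) (n := 1) (H := Subgroup.centralizer ({z} : Set G))
    (F := Subgroup.zpowers (w : G)) (Subgroup.zpowers_le.2 (mem_cent_iff.2 hwz))
    (by rw [Nat.card_zpowers, Subgroup.orderOf_coe, hw]; rfl)
    (by rw [D.setup.card_cent]; norm_num) (mem_cent_iff.2 hc) (k := 1) (by rw [hc5]; rfl)
  have hmz : m * z = z * m := mem_cent_iff.1 hm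
  set d := m⁻¹ * s * m with hd
  refine ⟨d, ?_, ?_, ?_, ?_⟩
  · rw [hd]
    simpa using (MulEquiv.orderOf_eq (MulAut.conj m⁻¹) s).trans hs5
  · have h1 : s * (m * c * m⁻¹) = m * c * m⁻¹ * s := commute_of_mem_zpowers hws.symm hmc
    calc d * c = m⁻¹ * (s * (m * c * m⁻¹)) * m := by rw [hd]; group
      _ = m⁻¹ * (m * c * m⁻¹ * s) * m := by rw [h1]
      _ = c * d := by rw [hd]; group
  · calc z * d * z = (z * m⁻¹) * s * (m * z) := by rw [hd]; group
      _ = (m⁻¹ * z) * s * (z * m) := by rw [hmz, ← D.setup.comm_inv hmz]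
      _ = m⁻¹ * (z * s * z) * m := by group
      _ = d⁻¹ := by rw [hsz, hd]; group
  · have e2 : Subgroup.centralizer ({d} : Set G) ⊓ Subgroup.centralizer ({z} : Set G) =
        A.map (MulAut.conj m⁻¹).toMonoidHom := by
      ext x
      rw [LargeExtraspecial.mem_conj_iff, inv_inv]
      simp only [hA, hH, Subgroup.mem_inf, mem_cent_iff]
      have hk1 : x * d = d * x ↔ m * x * m⁻¹ * s = s * (m * x * m⁻¹) := by
        constructor
        · intro h
          calc m * x * m⁻¹ * s = m * (x * d) * m⁻¹ := by rw [hd]; group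
            _ = m * (d * x) * m⁻¹ := by rw [h]
            _ = _ := by rw [hd]; group
        · intro h
          calc x * d = m⁻¹ * (m * x * m⁻¹ * s) * m := by rw [hd]; group
            _ = m⁻¹ * (s * (m * x * m⁻¹)) * m := by rw [h]
            _ = _ := by rw [hd]; group
      have hk2 : x * z = z * x ↔ m * x * m⁻¹ * z = z * (m * x * m⁻¹) := by
        have hmz' := D.setup.comm_inv hmz
        constructor
        · intro h; exact D.setup.comm_mul (D.setup.comm_mul hmz h) hmz'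
        · intro h
          have := D.setup.comm_mul (D.setup.comm_mul hmz' h) hmz
          rwa [show m⁻¹ * (m * x * m⁻¹) * m = x by group] at this
      rw [hk1, hk2]
    rw [e2]
    exact ⟨((Subgroup.equivMapOfInjective A _ (MulAut.conj m⁻¹).injective).symm).trans eA⟩

/-- The centralizer of `z` and a companion generate everything. -/
theorem eq_top_of_dual {d : G} (hd5 : orderOf d = 5)
    (hA : Nonempty (↥(Subgroup.centralizer ({d} : Set G) ⊓ Subgroup.centralizer ({z} : Set G)) ≃* A5))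
    (S : Subgroup G) (hzS : ∀ x, x * z = z * x → x ∈ S) (hdS : d ∈ S) : S = ⊤ := by
  classical
  haveI : Fact (Nat.Prime 2) := ⟨Nat.prime_two⟩
  obtain ⟨eA⟩ := hA
  set A := Subgroup.centralizer ({d} : Set G) ⊓ Subgroup.centralizer ({z} : Set G) with hAdef
  haveI : IsSimpleGroup A5 := alternatingGroup.isSimpleGroup (by simp)
  haveI : IsSimpleGroup ↥A := eA.isSimpleGroup
  have hAz : ∀ x ∈ A, x * z = z * x := fun x hx => mem_cent_iff.1 hx.2
  have hAQ : ∀ x ∈ A, x ∈ Q → x = 1 := by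
    intro x hx hxQ
    haveI : (Q.subgroupOf A).Normal := ⟨fun a ha g => by
      rw [Subgroup.mem_subgroupOf] at ha ⊢
      exact D.setup.conj_mem (hAz g g.2) ha⟩
    rcases Subgroup.Normal.eq_bot_or_eq_top (inferInstance : (Q.subgroupOf A).Normal) with e | e
    · have : (⟨x, hx⟩ : ↥A) ∈ Q.subgroupOf A := hxQ
      rw [e, Subgroup.mem_bot] at this
      exact congrArg Subtype.val this
    · exfalso
      have hle : A ≤ Q := Subgroup.subgroupOf_eq_top.1 e
      have h1 := Subgroup.card_dvd_of_le hle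
      rw [D.setup.card_Q, Nat.card_congr eA.toEquiv, A5Facts.card] at h1
      norm_num at h1
  obtain ⟨i, hi⟩ := exists_prime_orderOf_dvd_card' (G := ↥A) 2 (by
    rw [Nat.card_congr eA.toEquiv, A5Facts.card]; norm_num)
  rw [← Subgroup.orderOf_coe] at hi
  obtain ⟨hii, hi1⟩ := orderOf_two_iff.1 hi
  obtain ⟨c, hc, hct⟩ := D.outside i (hAz i i.2) hii fun h => hi1 (hAQ i i.2 h)
  -- move `t` onto the involution
  have D' := D.conj c
  have hcz : c * z * c⁻¹ = z := by rw [hc, mul_inv_cancel_right]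
  rw [hcz, hct] at D'
  obtain ⟨X1, F1, g1, T'⟩ := D'.exists_CT
  have hdi : d * i = i * d := (mem_cent_iff.1 i.2.1).symm
  obtain ⟨f, hf, y, hy, hfy⟩ := T'.decomp d hdi
  have hd5' : d ^ 5 = 1 := by rw [← hd5, pow_orderOf_eq_one]
  have hd2 : d ^ 2 = y ^ 2 := by
    calc d ^ 2 = f * (y * f) * y := by rw [sq, hfy]; group
      _ = f * (f * y) * y := by rw [T'.comm f hf y hy]
      _ = (f * f) * y ^ 2 := by rw [sq]; group
      _ = _ := by rw [CTData.F_sq D' T' hf, one_mul]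
  have hdX : d ∈ X1 := by
    have e : d = (d ^ 2) ^ 3 := by rw [← pow_mul, show 2 * 3 = 5 + 1 from rfl, pow_succ, hd5', one_mul]
    rw [e, hd2]
    exact X1.pow_mem (X1.pow_mem hy 2) 3
  set v := c * u * c⁻¹ with hv
  have hvS : v ∈ S := hzS v (D'.setup.comm_Q D'.u_mem.1)
  have hzS' : z ∈ S := hzS z rfl
  obtain ⟨eX⟩ := T'.iso
  set L := (S.subgroupOf X1).map eX.toMonoidHom with hL
  have hmemL : ∀ (x : G) (hx : x ∈ X1), x ∈ S → eX ⟨x, hx⟩ ∈ L := fun x hx hxS =>
    ⟨⟨x, hx⟩, hxS, rfl⟩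
  have hne : ∀ (x : G) (hx : x ∈ X1), x ≠ 1 → eX ⟨x, hx⟩ ≠ 1 := fun x hx h1 h => h1
    (congrArg Subtype.val (eX.injective (h.trans eX.map_one.symm)))
  have hza := hne z T'.z_X0 D'.setup.z_ne
  have hva := hne v T'.u_X0 D'.u_mem.2.2.1
  have hda := hne d hdX fun h => by rw [h, orderOf_one] at hd5; norm_num at hd5
  have hz2 : eX ⟨z, T'.z_X0⟩ * eX ⟨z, T'.z_X0⟩ = 1 := by
    rw [← map_mul, show (⟨z, T'.z_X0⟩ : ↥X1) * ⟨z, T'.z_X0⟩ = 1 from Subtype.ext D'.setup.z_sq, map_one]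
  have hv2 : eX ⟨v, T'.u_X0⟩ * eX ⟨v, T'.u_X0⟩ = 1 := by
    rw [← map_mul, show (⟨v, T'.u_X0⟩ : ↥X1) * ⟨v, T'.u_X0⟩ = 1 from Subtype.ext D'.u_mem.2.1, map_one]
  have hd5X : eX ⟨d, hdX⟩ ^ 5 = 1 := by
    rw [← map_pow, show (⟨d, hdX⟩ : ↥X1) ^ 5 = 1 from Subtype.ext hd5', map_one]
  obtain ⟨w, hw, hw3, hw1⟩ := four_five_three _ hz2 hza _ hd5X hda (eX ⟨v, T'.u_X0⟩)
    ⟨hv2, hva, fun h => D'.u_mem.2.2.2 (congrArg Subtype.val (eX.injective h)), by
      rw [← map_mul, ← map_mul]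
      exact congrArg eX (Subtype.ext (D'.setup.comm_Q D'.u_mem.1).symm)⟩
  have hzL := hmemL z T'.z_X0 hzS'
  have hvL := hmemL v T'.u_X0 hvS
  have hdL := hmemL d hdX hdS
  have hwL : w ∈ L := by
    simp only [List.mem_cons, List.not_mem_nil, or_false] at hw
    rcases hw with rfl | rfl | rfl | rfl | rfl | rfl
    · exact mul_mem hzL hdL
    · exact mul_mem hvL hdL
    · exact mul_mem hzL (pow_mem hdL 2)
    · exact mul_mem hvL (pow_mem hdL 2)
    · exact mul_mem (mul_mem hzL hvL) hdL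
    · exact mul_mem (mul_mem hzL hvL) (pow_mem hdL 2)
  have htop := eq_top_of_orders L hzL hwL hdL (by rw [sq]; exact hz2) hw3 hd5X hza hw1 hda
  have hXS : X1 ≤ S := fun x hx => by
    obtain ⟨p, hp, hpe⟩ : eX ⟨x, hx⟩ ∈ L := htop ▸ Subgroup.mem_top _
    rw [show p = (⟨x, hx⟩ : ↥X1) from eX.injective hpe] at hp
    exact hp
  obtain ⟨k, hk, hkz⟩ := CTData.exists_conj_z D' T' T'.u_X0 D'.u_mem.2.1 D'.u_mem.2.2.1
  -- the same structure inside `S`
  have h := D.setup
  have hQS : Q ≤ S := fun x hx => hzS x (h.comm_Q hx)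
  let QS := Q.subgroupOf S
  let zS : ↥S := ⟨z, hzS'⟩
  have hcom : ∀ a : ↥S, a * zS = zS * a ↔ (a : G) * z = z * a := fun a =>
    ⟨fun e => congrArg Subtype.val e, fun e => Subtype.ext e⟩
  have hsetting : LargeExtraspecial.Setting QS zS := by
    refine ⟨LargeExtraspecial.isExtraspecial_of_mulEquiv (Subgroup.subgroupOfEquivOfLe hQS).symm
      h.setting.extraspecial, fun x => ?_, ?_, ?_, fun a ha q => ?_⟩
    · rw [LargeExtraspecial.mem_zOf]
      constructor
      · rintro ⟨hx, hall⟩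
        rcases (h.setting.mem_iff (x : G)).1 (LargeExtraspecial.mem_zOf.2 ⟨hx, fun p hp =>
          congrArg Subtype.val (hall ⟨p, hQS hp⟩ hp)⟩) with e | e
        · exact Or.inl (Subtype.ext e)
        · exact Or.inr (Subtype.ext e)
      · rintro (rfl | rfl)
        · exact ⟨QS.one_mem, fun p _ => by simp⟩
        · exact ⟨h.z_mem, fun p hp => (hcom p).2 (h.comm_Q hp)⟩
    · rw [← Subgroup.orderOf_coe]; exact orderOf_z D T
    · ext x
      rw [LargeExtraspecial.mem_zOf, Subgroup.mem_centralizer_iff]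
      constructor
      · intro hall
        rcases h.eq_of_centralizes (c := (x : G)) fun p hp =>
          (congrArg Subtype.val (hall ⟨p, hQS hp⟩ hp)).symm with e | e
        · rw [show x = 1 from Subtype.ext e]
          exact ⟨QS.one_mem, fun p _ => by simp⟩
        · rw [show x = zS from Subtype.ext e]
          exact ⟨h.z_mem, fun p hp => (hcom p).2 (h.comm_Q hp)⟩
      · exact fun hx p hp => hx.2 p hp
    · exact h.setting.normalized (a : G) ((hcom a).1 ha) (q : G)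
  have hSetup : Setup zS QS (fun a => img (a : G)) := by
    refine ⟨hsetting, ?_, fun a b ha hb => h.mul _ _ ((hcom a).1 ha) ((hcom b).1 hb), fun y => ?_,
      fun a ha => h.ker _ ((hcom a).1 ha)⟩
    · rw [Nat.card_congr (Subgroup.subgroupOfEquivOfLe hQS).toEquiv, h.card_Q]
    · obtain ⟨a, ha, e⟩ := h.surj y
      exact ⟨⟨a, hzS a ha⟩, (hcom _).2 ha, e⟩
  obtain ⟨u2, t2, r2, E2, D2⟩ := hSetup.exists_data ⟨k, hXS hk⟩
    (show k * z * k⁻¹ ∈ Q by rw [hkz]; exact h.conj_mem hc D.u_mem.1)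
    (fun e => D'.u_mem.2.2.2 (hkz ▸ congrArg Subtype.val e))
    ⟨zS, ⟨i, hzS i (hAz i i.2)⟩, by rw [← Subgroup.orderOf_coe]; exact orderOf_z D T,
      by rw [← Subgroup.orderOf_coe]; exact hi, fun hcj => D'.nc (by
        obtain ⟨p, hp⟩ := isConj_iff.1 hcj
        exact isConj_iff.2 ⟨(p : G), congrArg Subtype.val hp⟩)⟩
  obtain ⟨X2, F2, g2, T2⟩ := D2.exists_CT
  exact Subgroup.eq_top_of_card_eq S (by rw [CTData.card_G D2 T2, CTData.card_G D T])

end

end CfsgLib.ConwayFive.JFive
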