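import Cfsg.Agent.ConwayFive.Split

/-!
The centralizer of the complement is the alternating group of degree five.
-/

set_option autoImplicit false
set_option linter.unusedSectionVars false
set_option synthInstance.maxSize 2000

namespace CfsgLib.ConwayFive

open Cfsg CfsgLib.ExtraspecialTwo CfsgLib.ExtraspecialTwo.MinusFour

variable {G : Type*} [Group G]

/-- The interchange of the two blocks. -/
noncomputable def blockSwap : O8 :=
  ⟨glOfEquiv (LinearEquiv.funCongrLeft (ZMod 2) (ZMod 2) (Equiv.sumComm (Fin 4) (Fin 4))),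
    ExtraspecialTwo.mem_isometryGroup.2 fun v => by
      rw [glOfEquiv_mulVec]
      show qV (pu v) + qV (pw v) = qV (pw v) + qV (pu v)
      rw [add_comm]⟩

theorem app_blockSwap (v : V8) : app blockSwap v = mk (pu v) (pw v) := by
  show ((glOfEquiv _ : GL I8 (ZMod 2)) : Matrix I8 I8 (ZMod 2)).mulVec v = _
  rw [glOfEquiv_mulVec]
  funext i; rcases i with i | i <;> rfl

theorem blockSwap_conj (π ρ : Equiv.Perm (Fin 5)) :
    blockSwap * iota (π, ρ) * blockSwap⁻¹ = iota (ρ, π) := by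
  rw [mul_inv_eq_iff_eq_mul]
  refine iso_ext fun v => ?_
  simp only [app_mul, app_iota, app_blockSwap, pw_mk, pu_mk]

theorem five_cycle_std : ∀ τ : Equiv.Perm (Fin 5), τ ^ 5 = 1 → τ ≠ 1 → Equiv.Perm.sign τ = 1 :=
  fun τ h h1 => (five_cycle_conj τ h h1).1

theorem singular_rot : ∀ u : V4, qV u = 0 → qV (u + MinusFour.act rot u) + qV u +
    qV (MinusFour.act rot u) = 0 → u = 0 := by decide

theorem alt_two_involutions : ∀ π : Alt5, ∃ a b : Alt5, a * a = 1 ∧ b * b = 1 ∧ π = a * b := by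
  decide +kernel

/-- An isometry fixing the first block is a permutation of the second. -/
theorem fix_first {f : O8} (h : ∀ a, app f (mk a 0) = mk a 0) :
    ∃ ρ : Equiv.Perm (Fin 5), f = iota (1, ρ) := by
  have hU : ∀ p, pw (app f (mk 0 p)) = 0 := by
    intro p
    by_contra hne
    obtain ⟨c, hc⟩ := qV_polar_exists _ hne
    have h2 := app_Bf f (mk 0 p) (mk c 0)
    rw [h c, ← mk_pw_pu (app f (mk 0 p)), Bf_mk, Bf_mk, hc] at h2
    simp only [add_zero, zero_add, qV_zero, CharTwo.add_self_eq_zero] at h2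
    exact one_ne_zero h2
  have eU : ∀ p, app f (mk 0 p) = mk 0 (pu (app f (mk 0 p))) := fun p => vec_ext (hU p) rfl
  obtain ⟨ρ, hρ⟩ := exists_perm (fun p => pu (app f (mk 0 p)))
    (fun a a' e => by simpa using congrArg pu (app_injective f
      ((eU a).trans ((congrArg (fun x => mk 0 x) e).trans (eU a').symm))))
    (fun a a' => by rw [← map_add, ← app_add, ← mk_add, add_zero])
    (fun a => by
      have := app_q f (mk 0 a)
      rw [eU a, Q8_mk, Q8_mk] at this
      exact add_left_cancel this)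
  refine ⟨ρ, iso_ext fun v => ?_⟩
  rw [app_iota, act_one']
  conv_lhs => rw [← mk_pw_pu v, show mk (pw v) (pu v) = mk (pw v) 0 + mk 0 (pu v) by
    rw [← mk_add, add_zero, zero_add], app_add, h, eU, ← mk_add, add_zero, zero_add]
  exact congrArg (mk (pw v)) (hρ _)

namespace Frame

variable [Finite G] {z b : G} {Q : Subgroup G} {pr : G → V8} {act : G → O8} (F : Frame z b Q pr act)
include F

theorem coprime_of_two {x : G} {k : ℕ} (h : x ^ 2 ^ k = 1) : Nat.Coprime (orderOf x) 5 :=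
  Nat.Coprime.coprime_dvd_left (orderOf_dvd_of_pow_eq_one h) (Nat.Coprime.pow_left k (by norm_num))

theorem pow_four {a : G} (ha : a ∈ Q) : a ^ 4 = 1 := by
  have : (a * a) * (a * a) = 1 := by
    rcases F.coords.sq_cases ha with ⟨e, -⟩ | ⟨e, -⟩ <;> rw [e]
    · exact one_mul 1
    · exact F.coords.z_sq
  simpa [pow_succ, mul_assoc] using this

theorem Q1_mem {L : Subgroup G} (SL : Split b L) {a : G} (ha : a ∈ Q) (hb : a * b = b * a) : a ∈ L :=
  SL.coprime_mem a hb (F.coprime_of_two (k := 2) (F.pow_four ha))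

theorem z_mem_L {L : Subgroup G} (SL : Split b L) : z ∈ L :=
  F.Q1_mem SL F.coords.z_mem F.b_z.symm

/-- Elements acting on the first block only lie in the complement. -/
theorem mem_L {L : Subgroup G} (SL : Split b L) {x : G} (hz : x * z = z * x) (hb : x * b = b * x)
    {π : Equiv.Perm (Fin 5)} (e : act x = iota (π, 1)) : x ∈ L := by
  obtain ⟨π', i, e', hs⟩ := F.act_cases hz hb
  have hs : Equiv.Perm.sign π = 1 := by rw [(iota_inj (e.symm.trans e')).1]; exact hs
  obtain ⟨a, c, ha2, hc2, habc⟩ := alt_two_involutions ⟨π, Equiv.Perm.mem_alternatingGroup.2 hs⟩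
  have key : ∀ a : Alt5, a * a = 1 →
      ∃ y ∈ L, y * z = z * y ∧ y * b = b * y ∧ act y = iota ((a : Equiv.Perm (Fin 5)), 1) := by
    intro a ha
    obtain ⟨y, hy, e⟩ := F.exists_lift_alt a 0
    rw [pow_zero] at e
    refine ⟨y, SL.coprime_mem _ (F.comm_b y) (F.coprime_of_two (k := 3) ?_), hy, F.comm_b y, e⟩
    have h2 : (y : G) ^ 2 ∈ Q := by
      refine (F.coords.act_ker _ (F.coords.comm_pow hy 2)).1 ?_
      rw [F.coords.act_pow hy, e, ← map_pow, Prod.pow_mk, one_pow, sq, ← Subgroup.coe_mul, ha]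
      exact map_one iota
    rw [show (2 : ℕ) ^ 3 = 2 * 4 from rfl, pow_mul]
    exact F.pow_four h2
  obtain ⟨y1, h1, hz1, hb1, e1⟩ := key a ha2
  obtain ⟨y2, h2, hz2, hb2, e2⟩ := key c hc2
  set w := (y1 * y2)⁻¹ * x with hw
  have hwz : w * z = z * w := F.coords.comm_mul (F.coords.comm_inv (F.coords.comm_mul hz1 hz2)) hz
  have hwb : w * b = b * w :=
    (Commute.mul_left (Commute.inv_left (Commute.mul_left (show Commute y1 b from hb1)
      (show Commute y2 b from hb2))) (show Commute x b from hb)).eq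
  have hwQ : w ∈ Q := by
    refine (F.coords.act_ker w hwz).1 ?_
    rw [hw, F.coords.act_mul _ _ (F.coords.comm_inv (F.coords.comm_mul hz1 hz2)) hz,
      F.coords.act_inv (F.coords.comm_mul hz1 hz2), F.coords.act_mul _ _ hz1 hz2, e1, e2, e, iota_pair,
      ← Subgroup.coe_mul, ← habc, mul_one, inv_mul_cancel]
  rw [show x = y1 * y2 * w by rw [hw, mul_inv_cancel_left]]
  exact L.mul_mem (L.mul_mem h1 h2) (F.Q1_mem SL hwQ hwb)

/-- The part of the complement centralizing `z` acts on the first block only. -/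
theorem act_of_mem_L {L : Subgroup G} (SL : Split b L) {x : G} (hx : x ∈ L) (hz : x * z = z * x) :
    ∃ π : Equiv.Perm (Fin 5), act x = iota (π, 1) := by
  have hb := SL.le x hx
  obtain ⟨π, i, e, hs⟩ := F.act_cases hz hb
  obtain ⟨k, hkz, ek⟩ := F.exists_lift_alt ⟨π, Equiv.Perm.mem_alternatingGroup.2 hs⟩ 0
  rw [pow_zero] at ek
  have hkL := F.mem_L SL hkz (F.comm_b k) ek
  have hbi : x * (k : G)⁻¹ * (b ^ (i : ℕ))⁻¹ ∈ Q := by
    have h1 := F.coords.comm_inv hkz
    have h2 := F.coords.comm_inv (F.coords.comm_pow F.b_z (i : ℕ))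
    refine (F.coords.act_ker _ (F.coords.comm_mul (F.coords.comm_mul hz h1) h2)).1 ?_
    rw [F.coords.act_mul _ _ (F.coords.comm_mul hz h1) h2, F.coords.act_mul _ _ hz h1,
      F.coords.act_inv hkz, F.coords.act_inv (F.coords.comm_pow F.b_z _), F.coords.act_pow F.b_z,
      F.act_b, e, ek, ← map_inv, ← map_mul, ← map_pow, ← map_inv, ← map_mul, ← map_one iota]
    congr 1
    simp
  have hqb : x * (k : G)⁻¹ * (b ^ (i : ℕ))⁻¹ * b = b * (x * (k : G)⁻¹ * (b ^ (i : ℕ))⁻¹) :=
    (Commute.mul_left (Commute.mul_left (show Commute x b from hb)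
      (Commute.inv_left (show Commute (k : G) b from F.comm_b k)))
      (Commute.inv_left ((Commute.refl b).pow_left _))).eq
  have hbL : b ^ (i : ℕ) ∈ L := by
    rw [show b ^ (i : ℕ) = (x * (k : G)⁻¹ * (b ^ (i : ℕ))⁻¹)⁻¹ * (x * (k : G)⁻¹) by group]
    exact L.mul_mem (L.inv_mem (F.Q1_mem SL hbi hqb)) (L.mul_mem hx (L.inv_mem hkL))
  have hb1 : b ^ (i : ℕ) = 1 := SL.indep _ (Subgroup.npow_mem_zpowers b _) hbL
  have h1 := congrArg act hb1
  rw [F.coords.act_pow F.b_z, F.act_b, F.coords.act_one, ← map_pow, Prod.pow_mk, one_pow,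
    ← map_one iota] at h1
  exact ⟨π, by rw [e, (iota_inj (π' := 1) (ρ' := 1) h1).2]⟩

/-- The same frame for an element of order five of the first block. -/
theorem exists_swapped {c : G} (hcz : c * z = z * c) (hc5 : orderOf c = 5)
    (hact : act c = iota (rot, 1)) :
    Frame z c Q (fun a => app blockSwap (pr a)) (fun x => blockSwap * act x * blockSwap⁻¹) :=
  ⟨F.coords.transform blockSwap, hcz, hc5, by show blockSwap * act c * blockSwap⁻¹ = _; rw [hact, blockSwap_conj]⟩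

/-- An element of order five of the first block. -/
theorem exists_first_five : ∃ c, c * z = z * c ∧ c * b = b * c ∧ orderOf c = 5 ∧
    act c = iota (rot, 1) := by
  haveI : Fact (Nat.Prime 5) := ⟨by norm_num⟩
  obtain ⟨y, hy, e⟩ := F.exists_lift_alt ⟨rot, Equiv.Perm.mem_alternatingGroup.2 sign_rot⟩ 0
  rw [pow_zero] at e
  have h16 : rot ^ 16 = rot := by
    rw [show 16 = 5 * 3 + 1 from rfl, pow_succ, pow_mul, rot_pow_five, one_pow, one_mul]
  have hact : act ((y : G) ^ 16) = iota (rot, 1) := by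
    rw [F.coords.act_pow hy, e, ← map_pow, Prod.pow_mk, one_pow, h16]
  refine ⟨(y : G) ^ 16, F.coords.comm_pow hy 16, ((show Commute (y : G) b from F.comm_b y).pow_left 16).eq,
    orderOf_eq_prime ?_ ?_, hact⟩
  · have h5 : (y : G) ^ 5 ∈ Q := by
      refine (F.coords.act_ker _ (F.coords.comm_pow hy 5)).1 ?_
      rw [F.coords.act_pow hy, e, ← map_pow, Prod.pow_mk, one_pow, rot_pow_five]
      exact map_one iota
    rw [← pow_mul, show 16 * 5 = 5 * 4 * 4 from rfl, pow_mul, pow_mul, F.pow_four h5, one_pow]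
  · intro e1
    rw [e1, F.coords.act_one, ← map_one iota] at hact
    exact rot_ne_one (iota_inj (π := 1) (ρ := 1) hact).1.symm

/-- The companion of `c` and its alternating subgroup, inside the complement. -/
theorem exists_companion (hnwc : ∃ g, g * z * g⁻¹ ∈ Q ∧ g * z * g⁻¹ ≠ z) {L : Subgroup G}
    (SL : Split b L) {c : G} (hcL : c ∈ L) (hcz : c * z = z * c) (hc5 : orderOf c = 5) :
    ∃ d ∈ L, orderOf d = 5 ∧ d * c = c * d ∧ z * d * z = d⁻¹ ∧
      Nonempty (↥(L ⊓ Subgroup.centralizer ({d} : Set G) ⊓ Subgroup.centralizer ({z} : Set G)) ≃* Alt5) ∧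
      (∀ S : Subgroup G, (∀ x ∈ L, x * z = z * x → x ∈ S) → d ∈ S → L ≤ S) ∧
      ∀ x ∈ L, orderOf x = 5 → x * c = c * x → z * x * z = x⁻¹ → x ∈ Subgroup.zpowers d := by
  classical
  obtain ⟨u, t, r, E, D⟩ := F.exists_data hnwc
  obtain ⟨X0, FF, g, T⟩ := D.exists_CT
  obtain ⟨e, he⟩ := SL.quot
  have hzL := F.z_mem_L SL
  have hmem : ∀ x : ↥L, (x : G) ∈ Subgroup.centralizer ({b} : Set G) := fun x =>
    Subgroup.mem_centralizer_singleton_iff.2 (SL.le x x.2)
  have hez : e ⟨z, hzL⟩ = proj b F.zc := (he _ (hmem _)).trans rfl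
  have hcomm : ∀ x y : ↥L, (x : G) * y = y * x ↔ e x * e y = e y * e x := fun x y => by
    rw [← map_mul, ← map_mul, e.injective.eq_iff]
    exact ⟨fun h => Subtype.ext h, fun h => congrArg Subtype.val h⟩
  have hord : ∀ x : ↥L, orderOf (e x) = orderOf (x : G) := fun x => by
    rw [MulEquiv.orderOf_eq, Subgroup.orderOf_coe]
  have hinv : ∀ x : ↥L, z * (x : G) * z = (x : G)⁻¹ ↔
      proj b F.zc * e x * proj b F.zc = (e x)⁻¹ := fun x => by
    rw [← hez, ← map_mul, ← map_mul, ← map_inv, e.injective.eq_iff]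
    exact ⟨fun h => Subtype.ext h, fun h => congrArg Subtype.val h⟩
  have hcz' : e ⟨c, hcL⟩ * proj b F.zc = proj b F.zc * e ⟨c, hcL⟩ := hez ▸ (hcomm _ _).1 hcz
  have hc5' : orderOf (e ⟨c, hcL⟩) = 5 := (hord _).trans hc5
  obtain ⟨d0, hd5, hdc, hdz, hA⟩ := JFive.exists_dual D T hcz' hc5'
  obtain ⟨d, rfl⟩ := e.surjective d0
  have htop := fun S h1 h2 => JFive.eq_top_of_dual D T hd5 hA S h1 h2
  refine ⟨d, d.2, (hord d).symm.trans hd5, (hcomm d ⟨c, hcL⟩).2 hdc, (hinv d).2 hdz, ?_, ?_, ?_⟩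
  · obtain ⟨eA⟩ := hA
    refine ⟨(MulEquiv.trans ?_ eA)⟩
    refine
      { toFun := fun x => ⟨e ⟨x, x.2.1.1⟩, ⟨Subgroup.mem_centralizer_singleton_iff.2
          ((hcomm _ d).1 (Subgroup.mem_centralizer_singleton_iff.1 x.2.1.2)),
          Subgroup.mem_centralizer_singleton_iff.2 (hez ▸ (hcomm _ ⟨z, hzL⟩).1
            (Subgroup.mem_centralizer_singleton_iff.1 x.2.2))⟩⟩
        invFun := fun p => ⟨(e.symm p : ↥L), ⟨⟨(e.symm p).2, Subgroup.mem_centralizer_singleton_iff.2
          ((hcomm _ d).2 (by rw [e.apply_symm_apply]; exact Subgroup.mem_centralizer_singleton_iff.1 p.2.1))⟩,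
          Subgroup.mem_centralizer_singleton_iff.2 ((hcomm _ ⟨z, hzL⟩).2 (by
            rw [e.apply_symm_apply, hez]; exact Subgroup.mem_centralizer_singleton_iff.1 p.2.2))⟩⟩
        left_inv := fun x => Subtype.ext (by
          show ((e.symm (e ⟨x, x.2.1.1⟩) : ↥L) : G) = x
          rw [e.symm_apply_apply])
        right_inv := fun p => Subtype.ext (e.apply_symm_apply p)
        map_mul' := fun x y => Subtype.ext (map_mul e ⟨x, x.2.1.1⟩ ⟨y, y.2.1.1⟩) }
  · intro S hS hdS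
    have h := htop ((S.subgroupOf L).map e.toMonoidHom) (fun p hp => by
      obtain ⟨x, rfl⟩ := e.surjective p
      exact ⟨x, hS x x.2 ((hcomm x ⟨z, hzL⟩).2 (hez.symm ▸ hp)), rfl⟩) ⟨d, hdS, rfl⟩
    intro x hx
    obtain ⟨y, hy, hye⟩ : e ⟨x, hx⟩ ∈ (S.subgroupOf L).map e.toMonoidHom := h ▸ Subgroup.mem_top _
    rw [show y = (⟨x, hx⟩ : ↥L) from e.injective hye] at hy
    exact hy
  · intro x hx hx5 hxc hxz
    obtain ⟨j, hj⟩ := Subgroup.mem_zpowers_iff.1 (JFive.inverted_unique D T hcz' hc5' hd5 hdc hdz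
      ((hord ⟨x, hx⟩).trans hx5) ((hcomm ⟨x, hx⟩ ⟨c, hcL⟩).1 hxc) ((hinv ⟨x, hx⟩).1 hxz))
    rw [← map_zpow] at hj
    exact Subgroup.mem_zpowers_iff.2 ⟨j, congrArg Subtype.val (e.injective hj)⟩

/-- The homomorphism to the alternating group from the centralizer of the complement. -/
theorem exists_hom {L : Subgroup G} (SL : Split b L) :
    ∃ ψ : ↥(Subgroup.centralizer (L : Set G)) →* Alt5, Function.Injective ψ := by
  classical
  have hcomm : ∀ x ∈ Subgroup.centralizer (L : Set G), ∀ l ∈ L, x * l = l * x :=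
    fun x hx l hl => ((Subgroup.mem_centralizer_iff.1 hx) l hl).symm
  have hzL := F.z_mem_L SL
  have hform : ∀ x : ↥(Subgroup.centralizer (L : Set G)), ∃ ρ : Alt5,
      act (x : G) = iota (1, (ρ : Equiv.Perm (Fin 5))) := by
    intro x
    have hxz := hcomm x x.2 z hzL
    obtain ⟨ρ, e⟩ := fix_first (f := act (x : G)) fun a => by
      obtain ⟨q, hq, eq⟩ := F.coords.pr_surj (ConwayFive.mk a 0)
      have hqL := F.Q1_mem SL hq ((F.fix_iff hq).2 (by rw [eq, pu_mk]))
      rw [← eq, ← F.coords.act_pr _ hxz q hq, hcomm x x.2 q hqL, mul_inv_cancel_right]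
    have hs := (iota_mem_iff 1 ρ).1 (e ▸ F.coords.act_mem hxz)
    exact ⟨⟨ρ, Equiv.Perm.mem_alternatingGroup.2 (hs.symm.trans (map_one _))⟩, e⟩
  choose ψ hψ using hform
  let ψh : ↥(Subgroup.centralizer (L : Set G)) →* Alt5 := MonoidHom.mk' ψ fun x y => by
    refine Subtype.ext ?_
    have h := hψ (x * y)
    rw [Subgroup.coe_mul, F.coords.act_mul _ _ (hcomm x x.2 z hzL) (hcomm y y.2 z hzL), hψ x, hψ y,
      iota_pair] at h
    exact (iota_inj h).2.symm
  refine ⟨ψh, ?_⟩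
  rw [← MonoidHom.ker_eq_bot_iff, eq_bot_iff]
  rintro ⟨x, hx⟩ hk
  have h1 : ((ψ ⟨x, hx⟩ : Alt5) : Equiv.Perm (Fin 5)) = 1 := by
    rw [show ψ ⟨x, hx⟩ = 1 from hk]; rfl
  have hxz := hcomm x hx z hzL
  have hxQ : x ∈ Q := (F.coords.act_ker x hxz).1 (by
    have := hψ ⟨x, hx⟩
    rw [h1] at this
    exact this.trans (map_one iota))
  refine Subgroup.mem_bot.2 (Subtype.ext ?_)
  show x = 1
  have hzC : z ∉ Subgroup.centralizer (L : Set G) := by
    intro hzc
    haveI := SL.simple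
    obtain ⟨p, hp, q, hq, hpq⟩ := SL.nonabelian
    have hcen := (simple_perfect (H := ↥L) ⟨⟨p, hp⟩, ⟨q, hq⟩, fun e => hpq (congrArg Subtype.val e)⟩).2
    have : (⟨z, hzL⟩ : ↥L) ∈ Subgroup.center ↥L := Subgroup.mem_center_iff.2 fun l =>
      Subtype.ext (hcomm z hzc l l.2).symm
    rw [hcen, Subgroup.mem_bot] at this
    exact F.coords.z_ne (congrArg Subtype.val this)
  -- the first component vanishes
  have hw : pw (pr x) = 0 := by
    by_contra hne
    obtain ⟨c, hc⟩ := qV_polar_exists _ hne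
    obtain ⟨y, hy, ey⟩ := F.coords.pr_surj (ConwayFive.mk c 0)
    have hyL := F.Q1_mem SL hy ((F.fix_iff hy).2 (by rw [ey, pu_mk]))
    rcases F.coords.skew hxQ hy with ⟨h0, -⟩ | ⟨-, h2⟩
    · rw [← mk_pw_pu (pr x), ey, Bf_mk, hc] at h0
      simp only [add_zero, qV_zero, CharTwo.add_self_eq_zero] at h0
      exact one_ne_zero h0
    · rw [hcomm x hx y hyL] at h2; exact F.coords.z_ne (mul_eq_left.1 h2.symm)
  set x' := b * x * b⁻¹ with hx'
  have hx'C : x' ∈ Subgroup.centralizer (L : Set G) := Subgroup.mem_centralizer_iff.2 fun l hl => by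
    have hlb : l * b = b * l := SL.le l hl
    have hlbi : l * b⁻¹ = b⁻¹ * l := (Commute.inv_right (show Commute l b from hlb)).eq
    calc l * x' = (l * b) * x * b⁻¹ := by rw [hx']; group
      _ = b * (l * x) * b⁻¹ := by rw [hlb]; group
      _ = b * (x * l) * b⁻¹ := by rw [hcomm x hx l hl]
      _ = b * x * (l * b⁻¹) := by group
      _ = x' * l := by rw [hlbi, hx']; group
  have hx'Q := F.coords.conj_mem F.b_z hxQ
  have hq : Q8 (pr x) = 0 := by
    rcases F.coords.sq_cases hxQ with ⟨-, e⟩ | ⟨e, -⟩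
    · exact e
    · exact absurd (e ▸ mul_mem hx hx) hzC
  have hB : Bf (pr x) (pr x') = 0 := by
    rcases F.coords.skew hxQ hx'Q with ⟨e, -⟩ | ⟨-, e⟩
    · exact e
    · refine absurd ?_ hzC
      rw [show z = (x' * x)⁻¹ * (x * x') by rw [hx', e]; group]
      exact mul_mem (inv_mem (mul_mem hx'C hx)) (mul_mem hx hx'C)
  have hu : pu (pr x) = 0 := by
    refine singular_rot _ ?_ ?_
    · rw [← mk_pw_pu (pr x), Q8_mk, hw, qV_zero, zero_add] at hq; exact hq
    · rw [hx', F.coords.act_pr b F.b_z x hxQ, F.app_b, ← mk_pw_pu (pr x), pw_mk, pu_mk, Bf_mk, hw] at hB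
      simpa [qV_zero] using hB
  rcases (F.coords.pr_zero x hxQ).1 (vec_ext (hw.trans (map_zero pw).symm) (hu.trans (map_zero pu).symm))
    with e | e
  · exact e
  · exact absurd (e ▸ hx) hzC

/-- The centralizer of the complement. -/
theorem centralizer_iso (hnwc : ∃ g, g * z * g⁻¹ ∈ Q ∧ g * z * g⁻¹ ≠ z) {L : Subgroup G}
    (SL : Split b L) : Nonempty (↥(Subgroup.centralizer (L : Set G)) ≃* Alt5) := by
  classical
  haveI : IsSimpleGroup Alt5 := alternatingGroup.isSimpleGroup (by simp)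
  obtain ⟨c, hcz, hcb, hc5, hcact⟩ := F.exists_first_five
  have hcL := F.mem_L SL hcz hcb hcact
  obtain ⟨d, hdL, hd5, hdc, hdz, ⟨eA⟩, hgen, huniq⟩ := F.exists_companion hnwc SL hcL hcz hc5
  have F' := F.exists_swapped hcz hc5 hcact
  obtain ⟨L', SL'⟩ := F'.exists_split hnwc
  have hbact : blockSwap * act b * blockSwap⁻¹ = iota (rot, 1) := by rw [F.act_b, blockSwap_conj]
  have hbL' : b ∈ L' := F'.mem_L SL' F.b_z hcb.symm hbact
  obtain ⟨d', hd'L, hd'5, hd'b, hd'z, ⟨eM⟩, -, -⟩ := F'.exists_companion hnwc SL' hbL' F.b_z F.b_ord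
  -- the two companions generate the same group
  obtain ⟨w, hw, l, hl, hwl⟩ := SL.decomp d' hd'b
  have hzL := F.z_mem_L SL
  have hwz : z * w = w * z := comm_of_mem_zpowers F.zc hw
  have hw1 : w = 1 := by
    have hwl' : w * l = l * w := (comm_of_mem_zpowers
      (⟨l, Subgroup.mem_centralizer_singleton_iff.2 (SL.le l hl)⟩ : Cb b) hw).symm
    have hmem : (w * w) ∈ L := by
      have h := hd'z
      rw [hwl, show z * (w * l) * z = (z * w) * l * z by group, hwz, mul_inv_rev] at h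
      have e : z * l * z = w⁻¹ * (l⁻¹ * w⁻¹) := by rw [← h]; group
      have hwi : l⁻¹ * w⁻¹ = w⁻¹ * l⁻¹ := by rw [← mul_inv_rev, ← mul_inv_rev, hwl']
      have e2 : w * w = (z * l * z * l)⁻¹ := by
        rw [e, hwi, show (w⁻¹ * (w⁻¹ * l⁻¹) * l)⁻¹ = (w⁻¹ * w⁻¹)⁻¹ by group, mul_inv_rev, inv_inv]
      rw [e2]
      exact inv_mem (mul_mem (mul_mem (mul_mem hzL hl) hzL) hl)
    exact F.small_power hw (SL.indep _ (Subgroup.mul_mem _ hw hw) hmem)
  rw [hw1, one_mul] at hwl
  subst hwl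
  have hd'c : d' * c = c * d' := SL'.le d' hd'L
  have hd'zp := huniq d' hl hd'5 hd'c hd'z
  have hd'1 : d' ≠ 1 := fun e => by rw [e, orderOf_one] at hd'5; norm_num at hd'5
  have hdd' : d ∈ Subgroup.zpowers d' := by
    rw [J2Type.zpowers_eq_of_prime (by norm_num : Nat.Prime 5) hd5 hd'zp hd'1]
    exact Subgroup.mem_zpowers d
  -- the alternating subgroup of the other complement
  set M := L' ⊓ Subgroup.centralizer ({d'} : Set G) ⊓ Subgroup.centralizer ({z} : Set G) with hMdef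
  set A := L ⊓ Subgroup.centralizer ({d} : Set G) ⊓ Subgroup.centralizer ({z} : Set G) with hAdef
  haveI : IsSimpleGroup ↥M := eM.isSimpleGroup
  haveI : IsSimpleGroup ↥A := eA.isSimpleGroup
  have hMz : ∀ m ∈ M, m * z = z * m := fun m hm => mem_cent_iff.1 hm.2
  have hMd : ∀ m ∈ M, m * d = d * m := fun m hm =>
    J2Type.commute_of_mem_zpowers (mem_cent_iff.1 hm.1.2) hdd'
  have hMact : ∀ m ∈ M, ∃ ρ, act m = iota (1, ρ) := fun m hm => by
    obtain ⟨π, e⟩ := F'.act_of_mem_L SL' hm.1.1 (hMz m hm)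
    refine ⟨π, ?_⟩
    have h2 : act m = blockSwap⁻¹ * iota (π, 1) * blockSwap := by rw [← e]; group
    rw [h2, ← blockSwap_conj 1 π]; group
  have hMQ1 : ∀ m ∈ M, ∀ q ∈ Q, pu (pr q) = 0 → m * q = q * m := fun m hm q hq hu => by
    obtain ⟨π, e⟩ := F'.act_of_mem_L SL' hm.1.1 (hMz m hm)
    exact F'.comm_second (hMz m hm) (SL'.le m hm.1.1) e hq (by rw [app_blockSwap, pw_mk]; exact hu)
  have hAQ2 : ∀ a ∈ A, ∀ q ∈ Q, pw (pr q) = 0 → a * q = q * a := fun a ha q hq hw => by
    obtain ⟨π, e⟩ := F.act_of_mem_L SL ha.1.1 (mem_cent_iff.1 ha.2)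
    exact F.comm_second (mem_cent_iff.1 ha.2) (SL.le a ha.1.1) e hq hw
  have hMA : ∀ m ∈ M, ∀ a ∈ A, m * a * m⁻¹ * a⁻¹ = 1 ∨ m * a * m⁻¹ * a⁻¹ = z := by
    intro m hm a ha
    have hmz := hMz m hm
    have haz := mem_cent_iff.1 ha.2
    obtain ⟨ρ, em⟩ := hMact m hm
    obtain ⟨π, ea⟩ := F.act_of_mem_L SL ha.1.1 haz
    set w := m * a * m⁻¹ * a⁻¹ with hw
    have hwz : w * z = z * w := F.coords.comm_mul (F.coords.comm_mul (F.coords.comm_mul hmz haz)
      (F.coords.comm_inv hmz)) (F.coords.comm_inv haz)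
    have hwQ : w ∈ Q := by
      refine (F.coords.act_ker w hwz).1 ?_
      rw [hw, F.coords.act_mul _ _ (F.coords.comm_mul (F.coords.comm_mul hmz haz)
          (F.coords.comm_inv hmz)) (F.coords.comm_inv haz),
        F.coords.act_mul _ _ (F.coords.comm_mul hmz haz) (F.coords.comm_inv hmz),
        F.coords.act_mul _ _ hmz haz, F.coords.act_inv hmz, F.coords.act_inv haz, em, ea, iota_pair,
        ← map_inv, ← map_inv, ← map_mul, ← map_mul, ← map_one iota]
      congr 1
      simp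
    have hprconj : ∀ g, g * z = z * g → ∀ σ τ, act g = iota (σ, τ) → ∀ q ∈ Q,
        pr (g * q * g⁻¹) = ConwayFive.mk (MinusFour.act σ (pw (pr q))) (MinusFour.act τ (pu (pr q))) :=
      fun g hg σ τ e q hq => by rw [F.coords.act_pr g hg q hq, e, app_iota]
    have hgen1 : ∀ q ∈ Q, pu (pr q) = 0 → w * q = q * w := by
      intro q hq hu
      have haiz := F.coords.comm_inv haz
      set q' := a⁻¹ * q * a with hq'
      have hq'Q : q' ∈ Q := by
        have := F.coords.conj_mem haiz hq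
        rwa [inv_inv] at this
      have hu' : pu (pr q') = 0 := by
        have h := hprconj a⁻¹ haiz π⁻¹ 1 (by
          rw [F.coords.act_inv haz, ea, ← map_inv, Prod.inv_mk, inv_one]) q hq
        rw [inv_inv] at h
        rw [hq', h, pu_mk, hu, map_zero]
      have h1 : m⁻¹ * q' * m = q' := by
        rw [mul_assoc, ← hMQ1 m hm q' hq'Q hu', inv_mul_cancel_left]
      refine mul_inv_eq_iff_eq_mul.1 ?_
      calc w * q * w⁻¹ = m * (a * (m⁻¹ * q' * m) * a⁻¹) * m⁻¹ := by rw [hw, hq']; group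
        _ = m * q * m⁻¹ := by rw [h1, hq']; group
        _ = q := mul_inv_eq_iff_eq_mul.2 (hMQ1 m hm q hq hu)
    have hgen2 : ∀ q ∈ Q, pw (pr q) = 0 → w * q = q * w := by
      intro q hq hw0
      have hmiz := F.coords.comm_inv hmz
      have hq'Q : m⁻¹ * q * m ∈ Q := by
        have := F.coords.conj_mem hmiz hq
        rwa [inv_inv] at this
      have hw' : pw (pr (m⁻¹ * q * m)) = 0 := by
        have h := hprconj m⁻¹ hmiz 1 ρ⁻¹ (by
          rw [F.coords.act_inv hmz, em, ← map_inv, Prod.inv_mk, inv_one]) q hq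
        rw [inv_inv] at h
        rw [h, pw_mk, hw0, map_zero]
      refine mul_inv_eq_iff_eq_mul.1 ?_
      calc w * q * w⁻¹ = m * (a * (m⁻¹ * (a⁻¹ * q * a) * m) * a⁻¹) * m⁻¹ := by rw [hw]; group
        _ = m * (a * (m⁻¹ * q * m) * a⁻¹) * m⁻¹ := by
          rw [show a⁻¹ * q * a = q by rw [mul_assoc, ← hAQ2 a ha q hq hw0, inv_mul_cancel_left]]
        _ = m * (m⁻¹ * q * m) * m⁻¹ := by
          rw [mul_inv_eq_iff_eq_mul.2 (hAQ2 a ha _ hq'Q hw')]
        _ = q := by group
    refine (F.coords.setting.mem_iff w).1 ?_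
    rw [← F.coords.setting.centralizer_eq]
    refine Subgroup.mem_centralizer_iff.2 fun q hq => ?_
    obtain ⟨q1, hq1, e1⟩ := F.coords.pr_surj (ConwayFive.mk (pw (pr q)) 0)
    have hc1 := hgen1 q1 hq1 (by rw [e1, pu_mk])
    have hq2 : q1⁻¹ * q ∈ Q := Q.mul_mem (Q.inv_mem hq1) hq
    have hc2 := hgen2 _ hq2 (by
      rw [F.coords.pr_mul _ (Q.inv_mem hq1) _ hq, F.coords.pr_inv hq1, e1, map_add, pw_mk, add_self4])
    rw [show q = q1 * (q1⁻¹ * q) by group]
    exact ((show Commute w q1 from hc1).mul_right (show Commute w (q1⁻¹ * q) from hc2)).eq.symm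
  have hMAcomm : ∀ m ∈ M, ∀ a ∈ A, m * a = a * m := by
    intro m hm a ha
    by_contra hne
    let χ : ↥M →* ↥(Subgroup.zpowers z) := MonoidHom.mk'
      (fun m => ⟨(m : G) * a * (m : G)⁻¹ * a⁻¹, by
        rcases hMA m m.2 a ha with e | e <;> rw [e]
        · exact one_mem _
        · exact Subgroup.mem_zpowers z⟩)
      fun m1 m2 => Subtype.ext (by
        show (m1 : G) * m2 * a * ((m1 : G) * m2)⁻¹ * a⁻¹ =
          (m1 : G) * a * (m1 : G)⁻¹ * a⁻¹ * ((m2 : G) * a * (m2 : G)⁻¹ * a⁻¹)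
        set w2 := (m2 : G) * a * (m2 : G)⁻¹ * a⁻¹ with hw2
        have hw2z : w2 = 1 ∨ w2 = z := hMA m2 m2.2 a ha
        have hc : ∀ g, g * z = z * g → g * w2 = w2 * g := fun g hg => by
          rcases hw2z with e | e <;> rw [e]
          · simp
          · exact hg
        have hm1 := hMz m1 m1.2
        calc (m1 : G) * m2 * a * ((m1 : G) * m2)⁻¹ * a⁻¹
            = (m1 : G) * w2 * (a * (m1 : G)⁻¹ * a⁻¹) := by rw [hw2]; group
          _ = w2 * (m1 : G) * (a * (m1 : G)⁻¹ * a⁻¹) := by rw [hc _ hm1]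
          _ = w2 * ((m1 : G) * a * (m1 : G)⁻¹ * a⁻¹) := by group
          _ = _ := (hc _ (F.coords.comm_mul (F.coords.comm_mul (F.coords.comm_mul hm1 (mem_cent_iff.1 ha.2))
            (F.coords.comm_inv hm1)) (F.coords.comm_inv (mem_cent_iff.1 ha.2)))).symm)
    rcases Subgroup.Normal.eq_bot_or_eq_top (inferInstance : χ.ker.Normal) with e | e
    · obtain ⟨x, y, hxy⟩ : ∃ x y : ↥M, x * y ≠ y * x := by
        obtain ⟨p, q, hpq⟩ : ∃ p q : Alt5, p * q ≠ q * p :=
          ⟨JFive.a0, JFive.b0, by decide⟩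
        exact ⟨eM.symm p, eM.symm q, fun e' => hpq (by simpa using congrArg eM e')⟩
      refine hxy (MonoidHom.ker_eq_bot_iff χ |>.1 e ?_)
      rw [map_mul, map_mul]
      exact Subtype.ext (by
        obtain ⟨i, hi⟩ := Subgroup.mem_zpowers_iff.1 (χ x).2
        obtain ⟨j, hj⟩ := Subgroup.mem_zpowers_iff.1 (χ y).2
        show ((χ x : G)) * (χ y : G) = (χ y : G) * (χ x : G)
        rw [← hi, ← hj]
        exact ((Commute.refl z).zpow_zpow i j).eq)
    · have : χ ⟨m, hm⟩ = 1 := MonoidHom.mem_ker.1 (e ▸ Subgroup.mem_top _)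
      exact hne (mul_inv_eq_iff_eq_mul.1 (mul_inv_eq_one.1 (congrArg Subtype.val this)))
  -- `A` covers the first block
  let α : ↥A →* Alt5 := MonoidHom.mk' (fun a => toAlt (act (a : G))) fun x y => by
    rw [Subgroup.coe_mul]
    exact F.toAlt_mul (mem_cent_iff.1 x.2.2) (SL.le x x.2.1.1) (mem_cent_iff.1 y.2.2) (SL.le y y.2.1.1)
  have hαi : Function.Injective α := by
    rw [← MonoidHom.ker_eq_bot_iff]
    rcases Subgroup.Normal.eq_bot_or_eq_top (inferInstance : α.ker.Normal) with e | e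
    · exact e
    · exfalso
      have hle : A ≤ Q := fun a ha => by
        have hk : α ⟨a, ha⟩ = 1 := MonoidHom.mem_ker.1 (e ▸ Subgroup.mem_top _)
        obtain ⟨j, hj⟩ := F.toAlt_eq_one (mem_cent_iff.1 ha.2) (SL.le a ha.1.1) hk
        have hbj : b ^ j ∈ L := by
          rw [show b ^ j = a * ((b ^ j)⁻¹ * a)⁻¹ by group]
          exact L.mul_mem ha.1.1 (L.inv_mem (F.Q1_mem SL hj.1 (mem_cent_iff.1 hj.2)))
        have := hj.1
        rwa [SL.indep _ (Subgroup.npow_mem_zpowers b j) hbj, inv_one, one_mul] at this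
      have := Subgroup.card_dvd_of_le hle
      rw [F.coords.card_Q, Nat.card_congr eA.toEquiv, J2Type.A5Facts.card] at this
      norm_num at this
  have hαs : Function.Surjective α := ((Nat.bijective_iff_injective_and_card α).2
    ⟨hαi, Nat.card_congr eA.toEquiv⟩).2
  -- `M` centralizes the complement
  have hcentral : ∀ m ∈ M, ∀ x ∈ L, x * m = m * x := by
    intro m hm
    have hS := hgen (Subgroup.centralizer ({m} : Set G)) (fun x hx hxz => ?_)
      (mem_cent_iff.2 (hMd m hm).symm)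
    · exact fun x hx => mem_cent_iff.1 (hS hx)
    obtain ⟨π, e⟩ := F.act_of_mem_L SL hx hxz
    obtain ⟨⟨a, ha⟩, hea⟩ := hαs (toAlt (act x))
    have haz := mem_cent_iff.1 ha.2
    obtain ⟨π', e'⟩ := F.act_of_mem_L SL ha.1.1 haz
    have hπ : π' = π := by
      have h1 : toAlt (act a) = toAlt (act x) := hea
      rw [e, e'] at h1
      obtain ⟨p1, i1, f1, s1⟩ := F.act_cases haz (SL.le a ha.1.1)
      obtain ⟨p2, i2, f2, s2⟩ := F.act_cases hxz (SL.le x hx)
      rw [(iota_inj (e'.symm.trans f1)).1, (iota_inj (e.symm.trans f2)).1] at h1 ⊢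
      rw [← toAlt_iota (ρ := 1) s1, h1, toAlt_iota (ρ := 1) s2]
    have haiz := F.coords.comm_inv haz
    have hq : a⁻¹ * x ∈ Q := (F.coords.act_ker _ (F.coords.comm_mul haiz hxz)).1 (by
      rw [F.coords.act_mul _ _ haiz hxz, F.coords.act_inv haz, e', e, hπ, inv_mul_cancel])
    have hqb : (a⁻¹ * x) * b = b * (a⁻¹ * x) :=
      (Commute.mul_left (Commute.inv_left (show Commute a b from SL.le a ha.1.1))
        (show Commute x b from SL.le x hx)).eq
    refine mem_cent_iff.2 ?_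
    rw [show x = a * (a⁻¹ * x) by group]
    exact (Commute.mul_left (show Commute a m from (hMAcomm m hm a ha).symm)
      (show Commute (a⁻¹ * x) m from (hMQ1 m hm _ hq ((F.fix_iff hq).1 hqb)).symm)).eq
  have hMC : M ≤ Subgroup.centralizer (L : Set G) := fun m hm =>
    Subgroup.mem_centralizer_iff.2 fun x hx => hcentral m hm x hx
  obtain ⟨ψ, hψ⟩ := F.exists_hom SL
  refine ⟨MulEquiv.ofBijective ψ ((Nat.bijective_iff_injective_and_card ψ).2 ⟨hψ, ?_⟩)⟩
  refine le_antisymm (Nat.card_le_card_of_injective _ hψ) ?_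
  rw [← Nat.card_congr eM.toEquiv]
  exact Nat.card_le_card_of_injective _ (Subgroup.inclusion_injective hMC)

end Frame

end CfsgLib.ConwayFive
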