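import Cfsg.Agent.ConwayFive.Local
import Cfsg.Agent.J2Type.CTData

/-!
The centralizer of `b` modulo `⟨b⟩` is of Hall-Janko type.
-/

set_option autoImplicit false
set_option linter.unusedSectionVars false
set_option synthInstance.maxSize 2000

namespace CfsgLib.ConwayFive

open Cfsg CfsgLib.ExtraspecialTwo CfsgLib.ExtraspecialTwo.MinusFour

/-- The alternating group of degree five. -/
abbrev Alt5 : Type := ↥(alternatingGroup (Fin 5))

variable {G : Type*} [Group G]

/-- The centralizer of `b`. -/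
abbrev Cb (b : G) := ↥(Subgroup.centralizer ({b} : Set G))

/-- The cyclic subgroup of `b` inside its centralizer. -/
abbrev bsub (b : G) : Subgroup (Cb b) :=
  (Subgroup.zpowers b).subgroupOf (Subgroup.centralizer ({b} : Set G))

theorem comm_of_mem_zpowers {b : G} (x : Cb b) {w : G} (hw : w ∈ Subgroup.zpowers b) :
    (x : G) * w = w * x := by
  obtain ⟨j, rfl⟩ := Subgroup.mem_zpowers_iff.1 hw
  exact ((show Commute (x : G) b from Subgroup.mem_centralizer_singleton_iff.1 x.2).zpow_right j).eq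

instance bsub_normal (b : G) : (bsub b).Normal :=
  ⟨fun a (ha : (a : G) ∈ Subgroup.zpowers b) x => by
    show (x : G) * a * (x : G)⁻¹ ∈ Subgroup.zpowers b
    rw [comm_of_mem_zpowers x ha, mul_inv_cancel_right]; exact ha⟩

/-- The projection. -/
abbrev proj (b : G) : Cb b →* Cb b ⧸ bsub b := QuotientGroup.mk' _

theorem proj_eq_one {b : G} {x : Cb b} : proj b x = 1 ↔ (x : G) ∈ Subgroup.zpowers b :=
  QuotientGroup.eq_one_iff x

theorem proj_eq {b : G} {x y : Cb b} :
    proj b x = proj b y ↔ (x : G)⁻¹ * y ∈ Subgroup.zpowers b := by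
  rw [← inv_mul_eq_one, ← map_inv, ← map_mul, proj_eq_one]; rfl

/-- The even permutation of the first block. -/
noncomputable def pfst (f : O8) : Equiv.Perm (Fin 5) :=
  open scoped _root_.Classical in
  if h : ∃ p, f = iota p then h.choose.1 else 1

theorem pfst_iota (π ρ : Equiv.Perm (Fin 5)) : pfst (iota (π, ρ)) = π := by
  have h : ∃ p, iota (π, ρ) = iota p := ⟨_, rfl⟩
  rw [pfst, dif_pos h]
  exact (iota_inj (h.choose_spec.trans (congrArg iota (Prod.mk.eta (p := h.choose)).symm))).1.symm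

attribute [irreducible] pfst

/-- The image in the alternating group. -/
noncomputable def toAlt (f : O8) : Alt5 :=
  if h : Equiv.Perm.sign (pfst f) = 1 then ⟨pfst f, Equiv.Perm.mem_alternatingGroup.2 h⟩ else 1

theorem toAlt_iota {π ρ : Equiv.Perm (Fin 5)} (h : Equiv.Perm.sign π = 1) :
    ((toAlt (iota (π, ρ)) : Alt5) : Equiv.Perm (Fin 5)) = π := by
  unfold toAlt
  rw [dif_pos (show Equiv.Perm.sign (pfst (iota (π, ρ))) = 1 by rw [pfst_iota, h])]
  exact pfst_iota π ρ

namespace Frame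

variable [Finite G] {z b : G} {Q : Subgroup G} {pr : G → V8} {act : G → O8}

/-- The image of the fixed subgroup of `Q`. -/
def Qbar (_ : Frame z b Q pr act) : Subgroup (Cb b ⧸ bsub b) :=
  (Q.subgroupOf (Subgroup.centralizer ({b} : Set G))).map (proj b)

variable (F : Frame z b Q pr act)
include F

/-- `z` as an element of the centralizer of `b`. -/
def zc : Cb b := ⟨z, Subgroup.mem_centralizer_singleton_iff.2 F.b_z.symm⟩

theorem zc_coe : (F.zc : G) = z := rfl

theorem comm_b (x : Cb b) : (x : G) * b = b * x := Subgroup.mem_centralizer_singleton_iff.1 x.2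

theorem small_power {w : G} (hw : w ∈ Subgroup.zpowers b) (h2 : w * w = 1) : w = 1 := by
  have h5 : w ^ 5 = 1 := by
    obtain ⟨j, rfl⟩ := Subgroup.mem_zpowers_iff.1 hw
    rw [← zpow_natCast, ← zpow_mul, mul_comm, zpow_mul, zpow_natCast, F.b_pow_five, one_zpow]
  calc w = w ^ 5 * ((w * w) * (w * w))⁻¹ := by group
    _ = 1 := by rw [h5, h2]; simp

theorem eq_of_proj {x y : Cb b} (hx : (x : G) * x = 1) (hy : (y : G) * y = 1)
    (e : proj b x = proj b y) : x = y := by
  set w := (x : G)⁻¹ * y with hw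
  have hmem := proj_eq.1 e
  have hyw : (y : G) = x * w := by rw [hw, mul_inv_cancel_left]
  have h2 : w * w = 1 := by
    have h3 : (y : G) * y = (x : G) * x * (w * w) := by
      have hc : w * (x : G) = x * w := (comm_of_mem_zpowers x hmem).symm
      rw [hyw]
      calc (x : G) * w * (x * w) = x * (w * x) * w := by group
        _ = x * (x * w) * w := by rw [hc]
        _ = _ := by group
    rwa [hy, hx, one_mul, eq_comm] at h3
  exact (Subtype.ext (hyw.trans (by rw [show w = 1 from F.small_power hmem h2, mul_one]))).symm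

theorem comm_of_proj {x : Cb b} (e : proj b x * proj b F.zc = proj b F.zc * proj b x) :
    (x : G) * z = z * x := by
  have hz : (F.zc : G) * F.zc = 1 := F.coords.z_sq
  have h := F.eq_of_proj (x := x * F.zc * x⁻¹) (y := F.zc) ?_ hz
    (by rw [map_mul, map_mul, e, map_inv, mul_inv_cancel_right])
  · exact mul_inv_eq_iff_eq_mul.1 (congrArg Subtype.val h)
  · show (x : G) * z * (x : G)⁻¹ * ((x : G) * z * (x : G)⁻¹) = 1
    calc _ = (x : G) * (z * z) * (x : G)⁻¹ := by group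
      _ = 1 := by rw [F.coords.z_sq]; group

theorem mem_Q1 {a : G} : a ∈ Q ⊓ Subgroup.centralizer ({b} : Set G) ↔ a ∈ Q ∧ pu (pr a) = 0 := by
  rw [Subgroup.mem_inf, mem_cent_iff]
  exact and_congr_right fun ha => F.fix_iff ha

theorem card_Q1 : Nat.card ↥(Q ⊓ Subgroup.centralizer ({b} : Set G)) = 32 := by
  classical
  let φ : ↥(Q ⊓ Subgroup.centralizer ({b} : Set G)) →* Multiplicative V4 :=
    MonoidHom.mk' (fun a => Multiplicative.ofAdd (pw (pr a))) fun x y => by
      rw [Subgroup.coe_mul, F.coords.pr_mul _ x.2.1 _ y.2.1, map_add]; rfl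
  have hsur : Function.Surjective φ := fun v => by
    obtain ⟨a, ha, e⟩ := F.coords.pr_surj (ConwayFive.mk v.toAdd 0)
    exact ⟨⟨a, F.mem_Q1.2 ⟨ha, by rw [e, pu_mk]⟩⟩, by
      show Multiplicative.ofAdd (pw (pr a)) = v; rw [e, pw_mk, ofAdd_toAdd]⟩
  have hker : Nat.card φ.ker = 2 := by
    have hz : z ∈ Q ⊓ Subgroup.centralizer ({b} : Set G) :=
      ⟨F.coords.z_mem, mem_cent_iff.2 F.b_z.symm⟩
    have e : (φ.ker : Set ↥(Q ⊓ Subgroup.centralizer ({b} : Set G))) = {1, ⟨z, hz⟩} := by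
      ext a
      rw [SetLike.mem_coe, MonoidHom.mem_ker, Set.mem_insert_iff, Set.mem_singleton_iff]
      show Multiplicative.ofAdd (pw (pr a)) = 1 ↔ _
      rw [ofAdd_eq_one]
      constructor
      · intro h0
        refine ((F.coords.pr_zero _ a.2.1).1 ?_).imp (fun e => Subtype.ext e) (fun e => Subtype.ext e)
        exact vec_ext (h0.trans (map_zero pw).symm) ((F.mem_Q1.1 a.2).2.trans (map_zero pu).symm)
      · intro h0
        rw [(F.coords.pr_zero _ a.2.1).2 (h0.imp (congrArg Subtype.val) (congrArg Subtype.val)), map_zero]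
    rw [← SetLike.coe_sort_coe, Nat.card_coe_set_eq, e]
    exact Set.ncard_pair fun e' => F.coords.z_ne (congrArg Subtype.val e').symm
  have h1 := φ.ker.card_mul_index
  rw [Subgroup.index_ker, MonoidHom.range_eq_top.2 hsur, Subgroup.card_top, hker,
    Nat.card_congr Multiplicative.toAdd] at h1
  rw [← h1]
  simp

theorem extraspecial_Q1 :
    Cfsg.IsExtraspecial 2 ↥(Q ⊓ Subgroup.centralizer ({b} : Set G)) := by
  refine (LargeExtraspecial.isExtraspecial_of_le F.coords.setting.extraspecial inf_le_left ?_ ?_).1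
  · obtain ⟨a, ha, ea⟩ := F.coords.pr_surj (ConwayFive.mk (pt 0) 0)
    obtain ⟨c, hc, ec⟩ := F.coords.pr_surj (ConwayFive.mk (pt 1) 0)
    refine ⟨a, F.mem_Q1.2 ⟨ha, by rw [ea, pu_mk]⟩, c, F.mem_Q1.2 ⟨hc, by rw [ec, pu_mk]⟩, ?_⟩
    intro e
    rcases F.coords.skew ha hc with ⟨h0, -⟩ | ⟨-, h1⟩
    · rw [ea, ec, Bf_mk] at h0
      rw [add_comm] at h0
      exact pt_polar h0
    · rw [e] at h1; exact F.coords.z_ne (mul_eq_left.1 h1.symm)
  · intro x hx
    rw [LargeExtraspecial.mem_zOf] at hx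
    obtain ⟨hxQ, hall⟩ := hx
    refine (F.coords.setting.mem_iff x).2 ((F.coords.pr_zero x hxQ.1).1 ?_)
    by_contra hne
    have hw : pw (pr x) ≠ 0 := fun e =>
      hne (vec_ext (e.trans (map_zero pw).symm) ((F.mem_Q1.1 hxQ).2.trans (map_zero pu).symm))
    obtain ⟨c, hc⟩ := qV_polar_exists _ hw
    obtain ⟨y, hy, ey⟩ := F.coords.pr_surj (ConwayFive.mk c 0)
    have hcomm := hall y (F.mem_Q1.2 ⟨hy, by rw [ey, pu_mk]⟩)
    rcases F.coords.skew hxQ.1 hy with ⟨h0, -⟩ | ⟨-, h1⟩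
    · rw [← mk_pw_pu (pr x), (F.mem_Q1.1 hxQ).2, ey, Bf_mk, hc, add_zero, qV_zero] at h0
      simp at h0
    · rw [hcomm] at h1; exact F.coords.z_ne (mul_eq_left.1 h1.symm)

/-- The image function. -/
noncomputable def img (_ : Frame z b Q pr act) : Cb b ⧸ bsub b → Alt5 :=
  fun x => toAlt (act (x.out : Cb b))

theorem toAlt_mul {c d : G} (hc : c * z = z * c) (hcb : c * b = b * c) (hd : d * z = z * d)
    (hdb : d * b = b * d) : toAlt (act (c * d)) = toAlt (act c) * toAlt (act d) := by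
  obtain ⟨π, i, e, hs⟩ := F.act_cases hc hcb
  obtain ⟨π', j, e', hs'⟩ := F.act_cases hd hdb
  refine Subtype.ext ?_
  rw [F.coords.act_mul _ _ hc hd, e, e', iota_pair, Subgroup.coe_mul, toAlt_iota hs, toAlt_iota hs',
    toAlt_iota (by rw [map_mul, hs, hs', one_mul])]

theorem toAlt_b_pow {w : G} (hw : w ∈ Subgroup.zpowers b) : toAlt (act w) = 1 := by
  obtain ⟨n, -, rfl⟩ := (Subgroup.mem_zpowers_iff.1 hw).elim fun j hj =>
    (⟨(j % 5).toNat, trivial, by
      rw [← hj, ← zpow_natCast, Int.toNat_of_nonneg (Int.emod_nonneg _ (by norm_num))]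
      conv_rhs => rw [← Int.mul_ediv_add_emod j 5, zpow_add, zpow_mul,
        show b ^ (5 : ℤ) = 1 by exact_mod_cast F.b_pow_five, one_zpow, one_mul]⟩ :
      ∃ n : ℕ, True ∧ b ^ n = w)
  refine Subtype.ext ?_
  rw [F.coords.act_pow F.b_z, F.act_b, ← map_pow, Prod.pow_mk, one_pow, toAlt_iota (map_one _)]
  rfl

theorem img_proj {c : Cb b} (hc : (c : G) * z = z * c) : F.img (proj b c) = toAlt (act c) := by
  show toAlt (act ((proj b c).out : Cb b)) = _
  set c' := (proj b c).out with hc'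
  have hw := proj_eq.1 (QuotientGroup.out_eq' (proj b c)).symm
  rw [← hc'] at hw
  have hwz : (c : G)⁻¹ * c' * z = z * ((c : G)⁻¹ * c') := (comm_of_mem_zpowers F.zc hw).symm
  have hwb : (c : G)⁻¹ * c' * b = b * ((c : G)⁻¹ * c') := (comm_of_mem_zpowers
    (⟨b, Subgroup.mem_centralizer_singleton_iff.2 rfl⟩ : Cb b) hw).symm
  rw [show (c' : G) = c * ((c : G)⁻¹ * c') by group, F.toAlt_mul hc (F.comm_b c) hwz hwb,
    F.toAlt_b_pow hw, mul_one]

theorem toAlt_eq_one {c : G} (hc : c * z = z * c) (hcb : c * b = b * c) (h : toAlt (act c) = 1) :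
    ∃ i : ℕ, (b ^ i)⁻¹ * c ∈ Q ⊓ Subgroup.centralizer ({b} : Set G) := by
  obtain ⟨π, i, e, hs⟩ := F.act_cases hc hcb
  have hπ : π = 1 := by
    rw [← toAlt_iota (ρ := rot ^ (i : ℕ)) hs, ← e, h]; rfl
  refine ⟨(i : ℕ), ?_, mem_cent_iff.2 ?_⟩
  · refine (F.coords.act_ker _ (F.coords.comm_mul (F.coords.comm_inv (F.coords.comm_pow F.b_z _)) hc)).1 ?_
    rw [F.coords.act_mul _ _ (F.coords.comm_inv (F.coords.comm_pow F.b_z _)) hc,
      F.coords.act_inv (F.coords.comm_pow F.b_z _), F.coords.act_pow F.b_z, F.act_b, e, hπ, ← map_pow,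
      Prod.pow_mk, one_pow, inv_mul_cancel]
  · exact (Commute.mul_left (Commute.inv_left (Commute.pow_left (Commute.refl b) _))
      (show Commute c b from hcb)).eq

theorem exists_lift_alt (π : Alt5) (i : ℕ) :
    ∃ c : Cb b, (c : G) * z = z * c ∧ act c = iota ((π : Equiv.Perm (Fin 5)), rot ^ i) := by
  have hs : Equiv.Perm.sign (π : Equiv.Perm (Fin 5)) = 1 := Equiv.Perm.mem_alternatingGroup.1 π.2
  obtain ⟨c, hcz, hcb, e⟩ := F.exists_lift (f := iota ((π : Equiv.Perm (Fin 5)), rot ^ i))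
    ((iota_mem_iff _ _).2 (by rw [hs, map_pow, sign_rot, one_pow]))
    (by rw [iota_pair, iota_pair, mul_one, one_mul, ← pow_succ, ← pow_succ'])
  exact ⟨⟨c, Subgroup.mem_centralizer_singleton_iff.2 hcb⟩, hcz, e⟩

theorem exists_setup : J2Type.Setup (proj b F.zc) F.Qbar F.img := by
  classical
  set Q1 := Q ⊓ Subgroup.centralizer ({b} : Set G) with hQ1
  have hmemQ : ∀ {x : Cb b}, (x : G) ∈ Q → proj b x ∈ F.Qbar := fun {x} hx =>
    Subgroup.mem_map_of_mem _ (Subgroup.mem_subgroupOf.2 hx)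
  have hQbar : ∀ {p}, p ∈ F.Qbar → ∃ x : Cb b, (x : G) ∈ Q ∧ proj b x = p := by
    rintro _ ⟨x, hx, rfl⟩
    exact ⟨x, hx, rfl⟩
  let f : ↥Q1 →* Cb b ⧸ bsub b := (proj b).comp (Subgroup.inclusion (inf_le_right : Q1 ≤ _))
  have hfi : Function.Injective f := by
    rw [← MonoidHom.ker_eq_bot_iff, eq_bot_iff]
    rintro ⟨x, hx⟩ hk
    have hw : x ∈ Subgroup.zpowers b := proj_eq_one.1 hk
    have h5 : orderOf x ∣ 5 := F.b_ord ▸ orderOf_dvd_of_mem_zpowers hw
    have h2 : orderOf x ∣ 2 ^ 9 := by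
      have := Subgroup.orderOf_dvd_natCard Q hx.1
      rwa [F.coords.card_Q] at this
    have : orderOf x = 1 := Nat.dvd_one.1 (Nat.dvd_gcd h5 h2)
    exact Subgroup.mem_bot.2 (Subtype.ext (orderOf_eq_one_iff.1 this))
  have hrange : f.range = F.Qbar := by
    ext p
    constructor
    · rintro ⟨x, rfl⟩; exact hmemQ x.2.1
    · intro hp
      obtain ⟨x, hx, rfl⟩ := hQbar hp
      exact ⟨⟨x, hx, x.2⟩, rfl⟩
  let eQ : ↥Q1 ≃* ↥F.Qbar := (MonoidHom.ofInjective hfi).trans (MulEquiv.subgroupCongr hrange)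
  have hzmem : proj b F.zc ∈ F.Qbar := hmemQ F.coords.z_mem
  have hzne : proj b F.zc ≠ 1 := fun e =>
    F.coords.z_ne (F.small_power (proj_eq_one.1 e) F.coords.z_sq)
  have hcomm_of : ∀ {x : Cb b}, (∀ p ∈ F.Qbar, proj b x * p = p * proj b x) →
      proj b x = 1 ∨ proj b x = proj b F.zc := by
    intro x hall
    have hxz := F.comm_of_proj (hall _ hzmem)
    obtain ⟨π, i, e, hs⟩ := F.act_cases hxz (F.comm_b x)
    have hπ : π = 1 := perm_ext fun a => by
      obtain ⟨q, hq, eq⟩ := F.coords.pr_surj (ConwayFive.mk a 0)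
      have hq1 : q ∈ Q1 := F.mem_Q1.2 ⟨hq, by rw [eq, pu_mk]⟩
      have hp := hall _ (hmemQ (x := ⟨q, hq1.2⟩) hq)
      rw [← map_mul, ← map_mul, proj_eq] at hp
      have hw : ((x * (⟨q, hq1.2⟩ : Cb b) : Cb b) : G)⁻¹ * ((⟨q, hq1.2⟩ : Cb b) * x : Cb b) ∈ Q := by
        show ((x : G) * q)⁻¹ * (q * x) ∈ Q
        rw [show ((x : G) * q)⁻¹ * (q * x) = q⁻¹ * ((x : G)⁻¹ * q * (x : G)⁻¹⁻¹) by group]
        exact Q.mul_mem (Q.inv_mem hq) (F.coords.conj_mem (F.coords.comm_inv hxz) hq)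
      have h5 := F.b_ord ▸ orderOf_dvd_of_mem_zpowers hp
      have h2 := Subgroup.orderOf_dvd_natCard Q hw
      rw [F.coords.card_Q] at h2
      have hone := orderOf_eq_one_iff.1 (Nat.dvd_one.1 (Nat.dvd_gcd h5 h2))
      have hxq : (x : G) * q * (x : G)⁻¹ = q :=
        mul_inv_eq_iff_eq_mul.2 (inv_mul_eq_one.1 hone)
      have h3 := F.coords.act_pr x hxz q hq
      rw [hxq, eq, e, app_iota, pw_mk, pu_mk, map_zero] at h3
      rw [act_one']
      exact (congrArg pw h3).symm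
    obtain ⟨j, hj⟩ := F.toAlt_eq_one hxz (F.comm_b x)
      (Subtype.ext (by rw [e, toAlt_iota hs, hπ]; rfl))
    have hall' : ∀ p ∈ Q1, ((b ^ j)⁻¹ * (x : G)) * p = p * ((b ^ j)⁻¹ * (x : G)) := by
      intro p hp
      have hq := hall _ (hmemQ (x := ⟨p, hp.2⟩) hp.1)
      rw [← map_mul, ← map_mul, proj_eq] at hq
      have hw : ((x * (⟨p, hp.2⟩ : Cb b) : Cb b) : G)⁻¹ * ((⟨p, hp.2⟩ : Cb b) * x : Cb b) ∈ Q := by
        show ((x : G) * p)⁻¹ * (p * x) ∈ Q
        rw [show ((x : G) * p)⁻¹ * (p * x) = p⁻¹ * ((x : G)⁻¹ * p * (x : G)⁻¹⁻¹) by group]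
        exact Q.mul_mem (Q.inv_mem hp.1) (F.coords.conj_mem (F.coords.comm_inv hxz) hp.1)
      have h5 := F.b_ord ▸ orderOf_dvd_of_mem_zpowers hq
      have h2 := Subgroup.orderOf_dvd_natCard Q hw
      rw [F.coords.card_Q] at h2
      have hone := orderOf_eq_one_iff.1 (Nat.dvd_one.1 (Nat.dvd_gcd h5 h2))
      exact (Commute.mul_left (Commute.inv_left ((show Commute b p from
        (mem_cent_iff.1 hp.2).symm).pow_left j)) (show Commute (x : G) p from inv_mul_eq_one.1 hone)).eq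
    have hzQ1 := LargeExtraspecial.isExtraspecial_of_le F.coords.setting.extraspecial
      (inf_le_left : Q1 ≤ Q)
    have hcen : (b ^ j)⁻¹ * (x : G) = 1 ∨ (b ^ j)⁻¹ * (x : G) = z := by
      refine (F.coords.pr_zero _ hj.1).1 ?_
      by_contra hne
      have hw : pw (pr ((b ^ j)⁻¹ * (x : G))) ≠ 0 := fun e0 =>
        hne (vec_ext (e0.trans (map_zero pw).symm) ((F.mem_Q1.1 hj).2.trans (map_zero pu).symm))
      obtain ⟨c, hc⟩ := qV_polar_exists _ hw
      obtain ⟨y, hy, ey⟩ := F.coords.pr_surj (ConwayFive.mk c 0)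
      have hcm := hall' y (F.mem_Q1.2 ⟨hy, by rw [ey, pu_mk]⟩)
      rcases F.coords.skew hj.1 hy with ⟨h0, -⟩ | ⟨-, h1⟩
      · rw [← mk_pw_pu (pr ((b ^ j)⁻¹ * (x : G))), (F.mem_Q1.1 hj).2, ey, Bf_mk, hc, add_zero,
          qV_zero] at h0
        simp at h0
      · rw [hcm] at h1; exact F.coords.z_ne (mul_eq_left.1 h1.symm)
    have hbj : b ^ j ∈ Subgroup.zpowers b := Subgroup.npow_mem_zpowers b j
    rcases hcen with e0 | e0
    · refine Or.inl (proj_eq_one.2 ?_)
      rw [← inv_mul_eq_one.1 e0]; exact hbj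
    · refine Or.inr ?_
      have hx' : (x : G) = z * b ^ j := by
        rw [show (x : G) = b ^ j * ((b ^ j)⁻¹ * x) by group, e0]
        exact ((show Commute b z from F.b_z).pow_left j).eq
      refine (proj_eq.2 ?_).symm
      rw [zc_coe, hx', inv_mul_cancel_left]; exact hbj
  refine ⟨⟨?_, fun p => ?_, ?_, ?_, fun c hc p => ?_⟩, ?_, fun p q hp hq => ?_, fun y => ?_, fun p hp => ?_⟩
  · exact LargeExtraspecial.isExtraspecial_of_mulEquiv eQ F.extraspecial_Q1
  · rw [LargeExtraspecial.mem_zOf]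
    constructor
    · rintro ⟨hp, hall⟩
      obtain ⟨x, hx, rfl⟩ := hQbar hp
      exact hcomm_of (x := x) fun q hq => by
        exact (hall q hq).symm
    · rintro (rfl | rfl)
      · exact ⟨F.Qbar.one_mem, fun q _ => by simp⟩
      · refine ⟨hzmem, fun q hq => ?_⟩
        obtain ⟨x, hx, rfl⟩ := hQbar hq
        rw [← map_mul, ← map_mul]
        exact congrArg (proj b) (Subtype.ext (F.coords.comm_Q hx))
  · rw [J2Type.orderOf_two_iff]
    exact ⟨by rw [← map_mul, show F.zc * F.zc = 1 from Subtype.ext F.coords.z_sq, map_one], hzne⟩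
  · ext p
    rw [Subgroup.mem_centralizer_iff, LargeExtraspecial.mem_zOf]
    constructor
    · intro hall
      obtain ⟨x, rfl⟩ := QuotientGroup.mk'_surjective (bsub b) p
      rcases hcomm_of (x := x) fun q hq => (hall q hq).symm with e | e <;> rw [e]
      · exact ⟨F.Qbar.one_mem, fun q _ => by simp⟩
      · refine ⟨hzmem, fun q hq => ?_⟩
        obtain ⟨y, hy, rfl⟩ := hQbar hq
        rw [← map_mul, ← map_mul]
        exact congrArg (proj b) (Subtype.ext (F.coords.comm_Q hy))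
    · rintro ⟨hp, hall⟩ q hq
      exact hall q hq
  · obtain ⟨x, rfl⟩ := QuotientGroup.mk'_surjective (bsub b) c
    have hxz := F.comm_of_proj hc
    have key : ∀ (y : Cb b), (y : G) * z = z * y → ∀ q ∈ F.Qbar,
        proj b y * q * (proj b y)⁻¹ ∈ F.Qbar := by
      intro y hy q hq
      obtain ⟨w, hw, rfl⟩ := hQbar hq
      rw [← map_inv, ← map_mul, ← map_mul]
      exact hmemQ (F.coords.conj_mem hy hw)
    refine ⟨key x hxz p, fun h => ?_⟩
    have := key x⁻¹ (F.coords.comm_inv hxz) _ h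
    rw [map_inv] at this
    rwa [show (proj b x)⁻¹ * (proj b x * p * (proj b x)⁻¹) * (proj b x)⁻¹⁻¹ = p by group] at this
  · rw [← Nat.card_congr eQ.toEquiv, hQ1, F.card_Q1]
  · obtain ⟨x, rfl⟩ := QuotientGroup.mk'_surjective (bsub b) p
    obtain ⟨y, rfl⟩ := QuotientGroup.mk'_surjective (bsub b) q
    have hx := F.comm_of_proj hp
    have hy := F.comm_of_proj hq
    rw [← map_mul, F.img_proj (c := x * y) (F.coords.comm_mul hx hy), F.img_proj hx, F.img_proj hy]
    exact F.toAlt_mul hx (F.comm_b x) hy (F.comm_b y)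
  · obtain ⟨c, hc, e⟩ := F.exists_lift_alt y 0
    refine ⟨proj b c, ?_, ?_⟩
    · rw [← map_mul, ← map_mul]
      exact congrArg (proj b) (Subtype.ext hc)
    · rw [F.img_proj hc, e]
      exact Subtype.ext (toAlt_iota (Equiv.Perm.mem_alternatingGroup.1 y.2))
  · obtain ⟨x, rfl⟩ := QuotientGroup.mk'_surjective (bsub b) p
    have hx := F.comm_of_proj hp
    rw [F.img_proj hx]
    constructor
    · intro h1
      obtain ⟨j, hj⟩ := F.toAlt_eq_one hx (F.comm_b x) h1
      have : proj b x = proj b ⟨(b ^ j)⁻¹ * x, hj.2⟩ := by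
        rw [proj_eq]
        show (x : G)⁻¹ * ((b ^ j)⁻¹ * x) ∈ _
        rw [← comm_of_mem_zpowers x (Subgroup.inv_mem _ (Subgroup.npow_mem_zpowers b j)),
          inv_mul_cancel_left]
        exact Subgroup.inv_mem _ (Subgroup.npow_mem_zpowers b j)
      rw [this]; exact hmemQ hj.1
    · intro hp'
      obtain ⟨y, hy, e⟩ := hQbar hp'
      rw [← F.img_proj hx, ← e, F.img_proj (F.coords.comm_Q hy), F.coords.act_Q hy]
      exact Subtype.ext (by rw [show (1 : O8) = iota (1, 1) from (map_one iota).symm, toAlt_iota (map_one _)]; rfl)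

/-- Not all involutions are conjugate and `z` is not weakly closed. -/
theorem exists_data (hnwc : ∃ g, g * z * g⁻¹ ∈ Q ∧ g * z * g⁻¹ ≠ z) :
    ∃ (u t r : Cb b ⧸ bsub b) (E : Subgroup (Cb b ⧸ bsub b)),
      J2Type.Data (proj b F.zc) u t r F.Qbar E F.img := by
  classical
  have h := F.exists_setup
  obtain ⟨g, hg, hgz⟩ := hnwc
  -- an involution of the fixed part conjugate to `z`
  obtain ⟨s, hs, es⟩ := F.coords.pr_surj (ConwayFive.mk (pt 0) 0)
  have hs2 : s * s = 1 := (F.coords.pr_sq s hs).1 (by rw [es, Q8_mk, (pt_props 0).1, qV_zero, add_zero])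
  have hs0 : pr s ≠ 0 := fun e => (pt_props 0).2 (by
    have := congrArg pw e; rwa [es, pw_mk, map_zero] at this)
  have hs1 : s ≠ 1 := fun e => hs0 (by rw [e, F.coords.pr_one])
  have hsz : s ≠ z := fun e => hs0 (by rw [e, F.coords.pr_z])
  have hu2 : g * z * g⁻¹ * (g * z * g⁻¹) = 1 := J2Type.conj_sq F.coords.z_sq
  obtain ⟨c, hc, hcs⟩ := F.coords.transitive hg hu2 (J2Type.conj_ne_one F.coords.z_ne) hgz hs hs2 hs1 hsz
  have hsb : s * b = b * s := (F.fix_iff hs).2 (by rw [es, pu_mk])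
  -- move `z` inside the centralizer of `b`
  set g' := c * g with hg'
  have hgs : g' * z * g'⁻¹ = s := by rw [← hcs, hg']; group
  have hK := F.coords.conj g'
  rw [hgs] at hK
  have hzU : z ∈ Q.map (MulAut.conj g').toMonoidHom :=
    F.coords.mem_conj_swap (by rw [hgs]; exact hs) (by rw [hgs]; exact hsz)
  have hz0 : pr (g'⁻¹ * z * g') ≠ 0 := fun e => by
    rcases (hK.pr_zero z hzU).1 e with e' | e'
    · exact F.coords.z_ne e'
    · exact hsz e'.symm
  obtain ⟨q, -, hqb, hqz⟩ := hK.exists_move_fixed hsb.symm F.b_ord hzU F.b_z.symm hz0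
  set qc : Cb b := ⟨q, Subgroup.mem_centralizer_singleton_iff.2 hqb⟩
  have hzs : z * s ≠ z := fun e => hs1 (mul_eq_left.1 e)
  have hP : proj b qc * proj b F.zc * (proj b qc)⁻¹ =
      proj b ⟨z * s, mul_mem F.zc.2 (Subgroup.mem_centralizer_singleton_iff.2 hsb)⟩ := by
    rw [← map_inv, ← map_mul, ← map_mul]
    exact congrArg (proj b) (Subtype.ext hqz)
  have hzs2 : (z * s) * (z * s) = 1 := by
    calc z * s * (z * s) = z * (s * z) * s := by group
      _ = z * (z * s) * s := by rw [F.coords.comm_Q hs]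
      _ = (z * z) * (s * s) := by group
      _ = 1 := by rw [F.coords.z_sq, hs2, one_mul]
  have hmove : proj b qc * proj b F.zc * (proj b qc)⁻¹ ∈ F.Qbar := by
    rw [hP]; exact Subgroup.mem_map_of_mem _ (Q.mul_mem F.coords.z_mem hs)
  have hne : proj b qc * proj b F.zc * (proj b qc)⁻¹ ≠ proj b F.zc := fun e =>
    hzs (congrArg Subtype.val (F.eq_of_proj hzs2 F.coords.z_sq (hP ▸ e)))
  -- an involution outside
  have P : J2Type.Pair (proj b F.zc) (proj b qc * proj b F.zc * (proj b qc)⁻¹) F.Qbar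
      (F.Qbar.map (MulAut.conj (proj b qc)).toMonoidHom) F.img
      (fun a => F.img ((proj b qc)⁻¹ * a * proj b qc)) :=
    ⟨h, h.conj _, hmove,
      LargeExtraspecial.mem_conj_of_conj_mem h.setting (by rw [h.card_Q]) _ hmove hne, hne⟩
  obtain ⟨t, r, ⟨htz, -, htt, htQ⟩, -⟩ := P.exists_t
  obtain ⟨x, rfl⟩ := QuotientGroup.mk'_surjective (bsub b) t
  have hxz := F.comm_of_proj htz
  have hx10 : ((x ^ 5 : Cb b) : G) * ((x ^ 5 : Cb b) : G) = 1 := by
    have hw : ((x * x : Cb b) : G) ∈ Subgroup.zpowers b := proj_eq_one.1 (by rw [map_mul]; exact htt)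
    obtain ⟨j, hj⟩ := Subgroup.mem_zpowers_iff.1 hw
    rw [SubmonoidClass.coe_pow, ← pow_add, show 5 + 5 = 2 * 5 from rfl, pow_mul, sq,
      show (x : G) * x = b ^ j from hj.symm, ← zpow_natCast, ← zpow_mul, mul_comm, zpow_mul,
      zpow_natCast, F.b_pow_five, one_zpow]
  have hx5 : proj b (x ^ 5) = proj b x := by
    rw [map_pow, show 5 = 2 * 2 + 1 from rfl, pow_succ, pow_mul,
      show proj b x ^ 2 = 1 from (sq _).trans htt, one_pow, one_mul]
  have hxQ : ((x ^ 5 : Cb b) : G) ∉ Q := fun e => htQ (hx5 ▸ Subgroup.mem_map_of_mem _ e)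
  have hx5z : ((x ^ 5 : Cb b) : G) * z = z * ((x ^ 5 : Cb b) : G) := by
    rw [SubmonoidClass.coe_pow]; exact F.coords.comm_pow hxz 5
  refine h.exists_data (proj b qc) hmove hne ⟨proj b F.zc, proj b x, h.setting.order, ?_, ?_⟩
  · exact J2Type.orderOf_two_iff.2 ⟨htt, fun e => htQ (by rw [e]; exact F.Qbar.one_mem)⟩
  · intro hconj
    obtain ⟨p, hp⟩ := isConj_iff.1 hconj
    obtain ⟨y, rfl⟩ := QuotientGroup.mk'_surjective (bsub b) p
    have e : proj b (y * F.zc * y⁻¹) = proj b (x ^ 5) := by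
      rw [hx5, map_mul, map_mul, map_inv]; exact hp
    have hyz : ((y * F.zc * y⁻¹ : Cb b) : G) * ((y * F.zc * y⁻¹ : Cb b) : G) = 1 :=
      J2Type.conj_sq (g := (y : G)) F.coords.z_sq
    have hfin := congrArg Subtype.val (F.eq_of_proj hyz hx10 e)
    exact F.no_fusion (F.comm_b y) hfin hx5z hxQ

end Frame

end CfsgLib.ConwayFive
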