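import Cfsg.Agent.ConwayFive.Quot
import Cfsg.Agent.ConwayFive.J2Five
import Cfsg.Agent.J2Uniq.Recog
import Cfsg.Agent.S1620
import Cfsg.Agent.Eq.Def_Classical

/-!
The centralizer of `b` splits over `⟨b⟩`.
-/

set_option autoImplicit false
set_option linter.unusedSectionVars false
set_option synthInstance.maxSize 2000

namespace CfsgLib.ConwayFive

open Cfsg CfsgLib.ExtraspecialTwo CfsgLib.ExtraspecialTwo.MinusFour
open scoped commutatorElement

variable {G : Type*} [Group G]

/-- A complement of `⟨b⟩` in its centralizer. -/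
structure Split (b : G) (L : Subgroup G) : Prop where
  le : ∀ x ∈ L, x * b = b * x
  decomp : ∀ x, x * b = b * x → ∃ w ∈ Subgroup.zpowers b, ∃ l ∈ L, x = w * l
  indep : ∀ w ∈ Subgroup.zpowers b, w ∈ L → w = 1
  coprime_mem : ∀ x, x * b = b * x → Nat.Coprime (orderOf x) 5 → x ∈ L
  simple : IsSimpleGroup ↥L
  nonabelian : ∃ x ∈ L, ∃ y ∈ L, x * y ≠ y * x
  iso : Cfsg.Spor.IsoJ2 ↥L
  layer_eq : (Cfsg.layer (Cb b)).map (Subgroup.centralizer ({b} : Set G)).subtype = L
  quot : ∃ e : ↥L ≃* Cb b ⧸ bsub b, ∀ (x : ↥L) (hx : (x : G) ∈ Subgroup.centralizer ({b} : Set G)),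
    e x = proj b ⟨x, hx⟩

/-- A simple group with non-commuting elements is perfect and has trivial centre. -/
theorem simple_perfect {H : Type*} [Group H] [IsSimpleGroup H] (h : ∃ x y : H, x * y ≠ y * x) :
    commutator H = ⊤ ∧ Subgroup.center H = ⊥ := by
  obtain ⟨x, y, hxy⟩ := h
  constructor
  · rcases Subgroup.Normal.eq_bot_or_eq_top (inferInstance : (commutator H).Normal) with e | e
    · exfalso
      have : ⁅x, y⁆ ∈ commutator H :=
        Subgroup.commutator_mem_commutator (Subgroup.mem_top x) (Subgroup.mem_top y)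
      rw [e, Subgroup.mem_bot, commutatorElement_eq_one_iff_mul_comm] at this
      exact hxy this
    · exact e
  · rcases Subgroup.Normal.eq_bot_or_eq_top (inferInstance : (Subgroup.center H).Normal) with e | e
    · exact e
    · exact absurd ((Subgroup.mem_center_iff.1 (e ▸ Subgroup.mem_top y)) x) hxy

namespace Frame

variable [Finite G] {z b : G} {Q : Subgroup G} {pr : G → V8} {act : G → O8} (F : Frame z b Q pr act)
include F

theorem exists_split (hnwc : ∃ g, g * z * g⁻¹ ∈ Q ∧ g * z * g⁻¹ ≠ z) : ∃ L, Split b L := by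
  classical
  haveI : Fact (Nat.Prime 5) := ⟨by norm_num⟩
  obtain ⟨u, t, r, E, D⟩ := F.exists_data hnwc
  obtain ⟨X0, FF, g, T⟩ := D.exists_CT
  obtain ⟨eJ⟩ := J2Uniq.CTData.isoJ2 D T
  haveI : IsSimpleGroup Cfsg.Spor.J2 := Cfsg.Agent.S1620.result.1
  haveI : IsSimpleGroup (Cb b ⧸ bsub b) := eJ.isSimpleGroup
  have hnc : ∃ x y : Cb b ⧸ bsub b, x * y ≠ y * x := by
    obtain ⟨x, y, hxy⟩ := Cfsg.Agent.S1620.result.2
    exact ⟨eJ.symm x, eJ.symm y, fun e => hxy (by simpa using congrArg eJ e)⟩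
  -- an abelian Sylow subgroup for five
  obtain ⟨c0, hc0z, hc05⟩ := D.setup.exists_five
  obtain ⟨d0, hd05, hdc0, hdz0, -⟩ := JFive.exists_dual D T hc0z hc05
  obtain ⟨c, rfl⟩ := QuotientGroup.mk'_surjective (bsub b) c0
  obtain ⟨d, rfl⟩ := QuotientGroup.mk'_surjective (bsub b) d0
  have hcz : (c : G) * z = z * c := F.comm_of_proj hc0z
  set bb : Cb b := ⟨b, Subgroup.mem_centralizer_singleton_iff.2 rfl⟩ with hbb
  have hbc : ∀ x : Cb b, bb * x = x * bb := fun x => Subtype.ext (F.comm_b x).symm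
  have hcd : c * d = d * c := by
    have e1 : proj b (d * c) = proj b (c * d) := by rw [map_mul, map_mul]; exact hdc0
    have hw := proj_eq.1 e1
    set w : G := ((d * c : Cb b) : G)⁻¹ * ((c * d : Cb b) : G) with hwdef
    have hcd' : (c : G) * d = d * c * w := by
      rw [hwdef, Subgroup.coe_mul, Subgroup.coe_mul, mul_inv_cancel_left]
    -- apply conjugation by `z`
    have e2 : proj b (F.zc * d * F.zc) = proj b d⁻¹ := by rw [map_mul, map_mul, map_inv]; exact hdz0
    have hv := proj_eq.1 e2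
    set v : G := ((F.zc * d * F.zc : Cb b) : G)⁻¹ * ((d⁻¹ : Cb b) : G) with hvdef
    have hdzd : (d : G)⁻¹ = z * d * z * v := by
      rw [hvdef, Subgroup.coe_mul, Subgroup.coe_mul, zc_coe, InvMemClass.coe_inv, mul_inv_cancel_left]
    have hzw : z * w = w * z := comm_of_mem_zpowers F.zc hw
    have hdw : (d : G) * w = w * d := comm_of_mem_zpowers d hw
    have hcv : (c : G) * v = v * c := comm_of_mem_zpowers c hv
    have h1 : (c : G) * (d : G)⁻¹ = (d : G)⁻¹ * c * w := by
      calc (c : G) * (d : G)⁻¹ = c * (z * d * z * v) := by rw [hdzd]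
        _ = (c * z) * d * z * v := by group
        _ = (z * c) * d * z * v := by rw [hcz]
        _ = z * (c * d) * z * v := by group
        _ = z * (d * c * w) * z * v := by rw [hcd']
        _ = z * d * c * (w * z) * v := by group
        _ = z * d * c * (z * w) * v := by rw [hzw]
        _ = z * d * (c * z) * (w * v) := by group
        _ = z * d * (z * c) * (v * w) := by
          rw [hcz, show w * v = v * w from comm_of_mem_zpowers
            (⟨w, Subgroup.zpowers_le.2 bb.2 hw⟩ : Cb b) hv]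
        _ = z * d * z * (c * v) * w := by group
        _ = z * d * z * (v * c) * w := by rw [hcv]
        _ = (z * d * z * v) * c * w := by group
        _ = _ := by rw [← hdzd]
    have h2 : (d : G)⁻¹ * c = w * c * (d : G)⁻¹ := by
      calc (d : G)⁻¹ * c = (d : G)⁻¹ * (c * d) * (d : G)⁻¹ := by group
        _ = (d : G)⁻¹ * (d * c * w) * (d : G)⁻¹ := by rw [hcd']
        _ = c * w * (d : G)⁻¹ := by group
        _ = _ := by rw [show (c : G) * w = w * c from comm_of_mem_zpowers c hw]
    have h3 : w * w = 1 := by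
      have h4 : (d : G)⁻¹ * c = (d : G)⁻¹ * c * (w * w) := by
        calc (d : G)⁻¹ * c = w * c * (d : G)⁻¹ := h2
          _ = w * (c * (d : G)⁻¹) := by group
          _ = w * ((d : G)⁻¹ * c * w) := by rw [h1]
          _ = (w * (d : G)⁻¹) * c * w := by group
          _ = (d : G)⁻¹ * (w * c) * w := by
            rw [← (show Commute (d : G) w from hdw).inv_left.eq]; group
          _ = (d : G)⁻¹ * (c * w) * w := by rw [show w * (c : G) = c * w from (comm_of_mem_zpowers c hw).symm]
          _ = _ := by group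
      exact mul_eq_left.1 h4.symm
    exact Subtype.ext (by rw [Subgroup.coe_mul, Subgroup.coe_mul, hcd', F.small_power hw h3, mul_one])
  let P0 := Subgroup.closure ({bb, c, d} : Set (Cb b))
  have hP0 : ∀ x ∈ P0, ∀ y ∈ P0, x * y = y * x := by
    have hgen : ∀ x ∈ ({bb, c, d} : Set (Cb b)), ∀ y ∈ ({bb, c, d} : Set (Cb b)), x * y = y * x := by
      intro x hx y hy
      simp only [Set.mem_insert_iff, Set.mem_singleton_iff] at hx hy
      rcases hx with rfl | rfl | rfl <;> rcases hy with rfl | rfl | rfl <;>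
        first | rfl | exact hbc _ | exact (hbc _).symm | exact hcd | exact hcd.symm
    have h1 : P0 ≤ Subgroup.centralizer ({bb, c, d} : Set (Cb b)) :=
      (Subgroup.closure_le _).2 fun x hx => Subgroup.mem_centralizer_iff.2 fun y hy => hgen y hy x hx
    have h2 : P0 ≤ Subgroup.centralizer (P0 : Set (Cb b)) :=
      (Subgroup.closure_le _).2 fun x hx => Subgroup.mem_centralizer_iff.2 fun y hy =>
        (Subgroup.mem_centralizer_iff.1 (h1 hy) x hx).symm
    exact fun x hx y hy => (Subgroup.mem_centralizer_iff.1 (h2 hx) y hy).symm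
  have hdvd : 5 ^ 3 ∣ Nat.card P0 := by
    let π0 := (proj b).comp P0.subtype
    have h1 := π0.ker.card_mul_index
    rw [Subgroup.index_ker] at h1
    have hk : Nat.card π0.ker = 5 := by
      rw [← F.b_ord, ← Nat.card_zpowers]
      refine Nat.card_congr
        { toFun := fun x => ⟨((x : ↥P0) : Cb b), proj_eq_one.1 x.2⟩
          invFun := fun w => ⟨⟨⟨w, Subgroup.zpowers_le.2 bb.2 w.2⟩, by
            obtain ⟨j, hj⟩ := Subgroup.mem_zpowers_iff.1 w.2
            rw [show (⟨(w : G), _⟩ : Cb b) = bb ^ j from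
              Subtype.ext (by rw [SubgroupClass.coe_zpow]; exact hj.symm)]
            exact zpow_mem (Subgroup.subset_closure (Set.mem_insert _ _)) j⟩, proj_eq_one.2 w.2⟩
          left_inv := fun x => Subtype.ext (Subtype.ext (Subtype.ext rfl))
          right_inv := fun w => Subtype.ext rfl }
    have hcm : proj b c ∈ π0.range := ⟨⟨c, Subgroup.subset_closure (by simp)⟩, rfl⟩
    have hdm : proj b d ∈ π0.range := ⟨⟨d, Subgroup.subset_closure (by simp)⟩, rfl⟩
    let θ : ↥(Subgroup.zpowers (proj b c)) × ↥(Subgroup.zpowers (proj b d)) →* ↥π0.range :=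
      MonoidHom.noncommCoprod (Subgroup.inclusion (Subgroup.zpowers_le.2 hcm))
        (Subgroup.inclusion (Subgroup.zpowers_le.2 hdm)) fun x y => by
          refine Subtype.ext ?_
          have h1 : Commute (proj b c) (proj b d) := hdc0.symm
          obtain ⟨i, hi⟩ := Subgroup.mem_zpowers_iff.1 x.2
          obtain ⟨j, hj⟩ := Subgroup.mem_zpowers_iff.1 y.2
          show (x : Cb b ⧸ bsub b) * y = y * x
          rw [← hi, ← hj]
          exact (h1.zpow_zpow i j).eq
    have hθ : Function.Injective θ := by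
      rw [← MonoidHom.ker_eq_bot_iff, eq_bot_iff]
      rintro ⟨x, y⟩ hxy
      have e : (x : Cb b ⧸ bsub b) * y = 1 := congrArg Subtype.val hxy
      have hx1 : (x : Cb b ⧸ bsub b) = 1 := by
        by_contra hne
        have hxd : (x : Cb b ⧸ bsub b) ∈ Subgroup.zpowers (proj b d) := by
          rw [eq_inv_of_mul_eq_one_left e]; exact inv_mem y.2
        have hcd0 : proj b c ∈ Subgroup.zpowers (proj b d) := by
          have h5 := J2Type.zpowers_eq_of_prime (by norm_num : Nat.Prime 5) hc05 x.2 hne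
          have h6 := J2Type.zpowers_eq_of_prime (by norm_num : Nat.Prime 5) hd05 hxd hne
          rw [← h6, h5]; exact Subgroup.mem_zpowers _
        obtain ⟨j, hj⟩ := Subgroup.mem_zpowers_iff.1 hcd0
        have hzi : (proj b F.zc)⁻¹ = proj b F.zc := J2Type.inv_of_sq D.setup.z_sq
        have hinv : proj b F.zc * proj b c * proj b F.zc = (proj b c)⁻¹ := by
          rw [← hj]
          calc proj b F.zc * proj b d ^ j * proj b F.zc
              = (proj b F.zc * proj b d * (proj b F.zc)⁻¹) ^ j := by rw [conj_zpow, hzi]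
            _ = _ := by rw [hzi]; exact (congrArg (· ^ j) hdz0).trans (inv_zpow _ _)
        have hc1 : proj b c * proj b c = 1 := by
          have h7 : proj b F.zc * proj b c * proj b F.zc = proj b c := by
            rw [show proj b F.zc * proj b c = proj b c * proj b F.zc from hc0z.symm, mul_assoc,
              D.setup.z_sq, mul_one]
          exact mul_eq_one_iff_eq_inv.2 (h7.symm.trans hinv)
        have := orderOf_dvd_of_pow_eq_one (show proj b c ^ 2 = 1 by rw [sq, hc1])
        rw [show orderOf (proj b c) = 5 from hc05] at this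
        norm_num at this
      rw [hx1, one_mul] at e
      exact Subgroup.mem_bot.2 (Prod.ext (Subtype.ext hx1) (Subtype.ext e))
    have h2 := Subgroup.card_dvd_of_injective θ hθ
    rw [Nat.card_prod, Nat.card_zpowers, Nat.card_zpowers, show orderOf (proj b c) = 5 from hc05,
      show orderOf (proj b d) = 5 from hd05] at h2
    rw [← h1, hk]
    obtain ⟨m, hm⟩ := h2
    exact ⟨m, by rw [hm]; ring⟩
  obtain ⟨K, hKc⟩ := Sylow.exists_subgroup_card_pow_prime (G := ↥P0) 5 hdvd
  set KK := K.map P0.subtype with hKKdef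
  have hKKc : Nat.card KK = 125 := by
    rw [hKKdef, Subgroup.card_map_of_injective P0.subtype_injective, hKc]; rfl
  letI : CommGroup ↥KK := { (inferInstance : Group ↥KK) with
    mul_comm := fun x y => by
      obtain ⟨a, -, ha⟩ := x.2
      obtain ⟨a', -, ha'⟩ := y.2
      refine Subtype.ext ?_
      show (x : Cb b) * y = y * x
      rw [← ha, ← ha']
      exact hP0 a a.2 a' a'.2 }
  have hidx : KK.index = 24192 := by
    have h1 := KK.card_mul_index
    rw [hKKc, Subgroup.card_eq_card_quotient_mul_card_subgroup (bsub b), J2Type.CTData.card_G D T,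
      Nat.card_congr (Subgroup.subgroupOfEquivOfLe (Subgroup.zpowers_le.2 bb.2)).toEquiv,
      Nat.card_zpowers, F.b_ord] at h1
    omega
  set φ : Cb b →* ↥KK := MonoidHom.transfer (MonoidHom.id ↥KK) with hφdef
  have hφw : ∀ w : Cb b, w ∈ bsub b → φ w = 1 → w = 1 := by
    intro w hw hφ1
    rw [hφdef, MonoidHom.transfer_eq_pow _ w (fun k g₀ _ => by
      rw [mul_assoc]
      have : w ^ k * g₀ = g₀ * w ^ k := (Commute.pow_left
        (show Commute w g₀ from Subtype.ext (comm_of_mem_zpowers g₀ hw).symm) k).eq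
      rw [this, inv_mul_cancel_left])] at hφ1
    have hp : w ^ KK.index = 1 := congrArg Subtype.val hφ1
    rw [hidx] at hp
    have h5 : orderOf (w : G) ∣ 5 := F.b_ord ▸ orderOf_dvd_of_mem_zpowers hw
    rw [Subgroup.orderOf_coe] at h5
    have h1 := Nat.dvd_gcd h5 (orderOf_dvd_of_pow_eq_one hp)
    rw [show Nat.gcd 5 24192 = 1 by norm_num] at h1
    exact orderOf_eq_one_iff.1 (Nat.dvd_one.1 h1)
  set L0 := commutator (Cb b) with hL0
  have hperf := simple_perfect hnc
  have hL0map : L0.map (proj b) = ⊤ := by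
    rw [hL0, commutator_def, Subgroup.map_commutator,
      Subgroup.map_top_of_surjective _ (QuotientGroup.mk'_surjective _), ← commutator_def, hperf.1]
  have hL0ker : L0 ≤ φ.ker := Abelianization.commutator_subset_ker φ
  have hsplit : ∀ x : Cb b, ∃ w ∈ bsub b, ∃ l ∈ L0, x = w * l := by
    intro x
    obtain ⟨l, hl, e⟩ : proj b x ∈ L0.map (proj b) := hL0map ▸ Subgroup.mem_top _
    refine ⟨x * l⁻¹, ?_, l, hl, by group⟩
    exact (QuotientGroup.eq_one_iff _).1
      (show proj b (x * l⁻¹) = 1 by rw [map_mul, map_inv, e, mul_inv_cancel])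
  have hker : φ.ker ≤ L0 := by
    intro x hx
    obtain ⟨w, hw, l, hl, rfl⟩ := hsplit x
    have : φ w = 1 := by
      have := hL0ker hl
      rw [MonoidHom.mem_ker] at hx this
      rwa [map_mul, this, mul_one] at hx
    rw [hφw w hw this, one_mul]; exact hl
  let e0 : ↥L0 →* Cb b ⧸ bsub b := (proj b).comp L0.subtype
  have he0 : Function.Bijective e0 := by
    refine ⟨?_, fun p => ?_⟩
    · rw [← MonoidHom.ker_eq_bot_iff, eq_bot_iff]
      rintro ⟨x, hx⟩ hk
      exact Subgroup.mem_bot.2 (Subtype.ext (hφw x ((QuotientGroup.eq_one_iff x).1 hk) (hL0ker hx)))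
    · obtain ⟨l, hl, e⟩ : p ∈ L0.map (proj b) := hL0map ▸ Subgroup.mem_top _
      exact ⟨⟨l, hl⟩, e⟩
  let eL0 : ↥L0 ≃* Cb b ⧸ bsub b := MulEquiv.ofBijective e0 he0
  haveI : IsSimpleGroup ↥L0 := eL0.isSimpleGroup
  have hnc0 : ∃ x y : ↥L0, x * y ≠ y * x := by
    obtain ⟨x, y, hxy⟩ := hnc
    exact ⟨eL0.symm x, eL0.symm y, fun e => hxy (by simpa using congrArg eL0 e)⟩
  have hperf0 := simple_perfect hnc0
  have hlayer : Cfsg.layer (Cb b) = L0 := by
    refine le_antisymm (sSup_le ?_) (le_sSup ?_)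
    · rintro Kc ⟨-, hp, -⟩
      have h1 : commutator ↥Kc = ⊤ := hp.1
      have h2 : Kc = ⁅Kc, Kc⁆ := by
        conv_lhs => rw [← Kc.range_subtype, MonoidHom.range_eq_map, ← h1, commutator_def,
          Subgroup.map_commutator, ← MonoidHom.range_eq_map, Kc.range_subtype]
      rw [h2]
      exact Subgroup.commutator_mono le_top le_top
    · haveI : L0.Normal := by rw [hL0]; infer_instance
      refine ⟨Subgroup.Normal.isSubnormal inferInstance, ⟨hperf0.1⟩, ?_⟩
      exact ((QuotientGroup.quotientMulEquivOfEq hperf0.2).trans QuotientGroup.quotientBot).isSimpleGroup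
  let eL : ↥L0 ≃* ↥(L0.map (Subgroup.centralizer ({b} : Set G)).subtype) :=
    L0.equivMapOfInjective _ (Subgroup.subtype_injective _)
  refine ⟨L0.map (Subgroup.centralizer ({b} : Set G)).subtype, ?_, fun x hx => ?_, ?_,
    fun x hx ho => ?_, eL.symm.isSimpleGroup, ?_, ⟨(eL.symm.trans eL0).trans eJ⟩, by rw [hlayer],
    ⟨eL.symm.trans eL0, fun x hx => ?_⟩⟩
  · rintro _ ⟨x, -, rfl⟩; exact F.comm_b x
  · obtain ⟨w, hw, l, hl, e⟩ := hsplit ⟨x, Subgroup.mem_centralizer_singleton_iff.2 hx⟩
    exact ⟨w, hw, l, ⟨l, hl, rfl⟩, congrArg Subtype.val e⟩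
  · rintro _ hw ⟨x, hx, rfl⟩
    exact congrArg Subtype.val (hφw x hw (hL0ker hx))
  · refine ⟨⟨x, Subgroup.mem_centralizer_singleton_iff.2 hx⟩, hker ?_, rfl⟩
    rw [MonoidHom.mem_ker, ← orderOf_eq_one_iff]
    have h1 := orderOf_map_dvd φ (⟨x, Subgroup.mem_centralizer_singleton_iff.2 hx⟩ : Cb b)
    have ho' : Nat.Coprime (orderOf (⟨x, Subgroup.mem_centralizer_singleton_iff.2 hx⟩ : Cb b)) 5 := by
      rw [Subgroup.orderOf_mk]; exact ho
    have h2 : orderOf (φ ⟨x, Subgroup.mem_centralizer_singleton_iff.2 hx⟩) ∣ 5 ^ 3 := by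
      rw [show (5 : ℕ) ^ 3 = Nat.card KK by rw [hKKc]; rfl]
      exact orderOf_dvd_natCard _
    exact Nat.eq_one_of_dvd_coprimes (Nat.Coprime.pow_right 3 ho') h1 h2
  · obtain ⟨p, q, hpq⟩ := hnc0
    exact ⟨(p : Cb b), ⟨p, p.2, rfl⟩, (q : Cb b), ⟨q, q.2, rfl⟩,
      fun e => hpq (Subtype.ext (Subtype.ext e))⟩
  · obtain ⟨⟨y, hy⟩, rfl⟩ := eL.surjective x
    rw [MulEquiv.trans_apply, MulEquiv.symm_apply_apply]
    rfl

end Frame

end CfsgLib.ConwayFive
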